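import Mathlib
import Cfsg.Agent.Lib.Classical.Herm.AutMain

/-!
# A semilinear map with all rational isotropic vectors as eigenvectors is a scalar on rational vectors
-/

set_option autoImplicit false
set_option linter.unusedSectionVars false
set_option linter.unusedSimpArgs false
set_option linter.unusedVariables false

open Cfsg
open Cfsg.Agent.Lib.Classical.Herm.Basic Cfsg.Agent.Lib.Classical.Herm.Block
open Cfsg.Agent.Lib.Classical.Herm.Subfield Cfsg.Agent.Lib.Classical.Herm.Tv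
open Cfsg.Agent.Lib.Classical.Herm.Levi Cfsg.Agent.Lib.Classical.Herm.AutMain

namespace Cfsg.Agent.Lib.Classical.HermBal.Scalar

variable {F F₀ : Type*} [Field F] [Fintype F] [Field F₀] [Fintype F₀] {q q₀ n m : ℕ}

/-- The coordinatewise map to the big field. -/
def jhat (j : F₀ →+* F) (x : Fin n → F₀) : Fin n → F := fun i => j (x i)

theorem jhat_add (j : F₀ →+* F) (x y : Fin n → F₀) : jhat j (x + y) = jhat j x + jhat j y := by
  funext i
  simp [jhat]

theorem jhat_smul (j : F₀ →+* F) (c : F₀) (x : Fin n → F₀) : jhat j (c • x) = j c • jhat j x := by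
  funext i
  simp [jhat]

theorem jhat_zero (j : F₀ →+* F) : jhat j (0 : Fin n → F₀) = 0 := by
  funext i
  simp [jhat]

theorem jhat_form (j : F₀ →+* F) (hj : ∀ x, (j x) ^ q = j (x ^ q₀)) (u v : Fin n → F₀) :
    hermForm n F q (jhat j u) (jhat j v) = j (hermForm n F₀ q₀ u v) := by
  rw [hermForm_apply, hermForm_apply, map_sum]
  refine Finset.sum_congr rfl fun i _ => ?_
  rw [map_mul, jhat, jhat, hj]

theorem jhat_ne_zero (j : F₀ →+* F) {x : Fin n → F₀} (hx : x ≠ 0) : jhat j x ≠ 0 := by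
  intro h
  apply hx
  funext i
  apply j.injective
  have := congrFun h i
  simpa [jhat] using this

section Core

variable (hF : Fintype.card F = q ^ 2) (hF₀ : Fintype.card F₀ = q₀ ^ 2) (j : F₀ →+* F)
  (hj : ∀ x, (j x) ^ q = j (x ^ q₀))
  (s : (Fin n → F) → (Fin n → F)) (τ : F ≃+* F)
  (hadd : ∀ x y, s (x + y) = s x + s y) (hsmul : ∀ (c : F) x, s (c • x) = τ c • s x)
  (hinj : ∀ x, s x = 0 → x = 0)
  (heig : ∀ a : Fin n → F₀, hermForm n F₀ q₀ a a = 0 → ∃ l : F, s (jhat j a) = l • jhat j a)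
include hF hF₀ hj hadd hsmul hinj heig

/-- The vector identity for a hyperbolic pair and a unit vector perpendicular to it. -/
theorem triple {e₀ f₀ c₀ : Fin n → F₀} (hee : hermForm n F₀ q₀ e₀ e₀ = 0) (hff : hermForm n F₀ q₀ f₀ f₀ = 0)
    (hef : hermForm n F₀ q₀ e₀ f₀ = 1) (hce : hermForm n F₀ q₀ c₀ e₀ = 0) (hcf : hermForm n F₀ q₀ c₀ f₀ = 0)
    (hcc : hermForm n F₀ q₀ c₀ c₀ = 1) {β : F} (hβ : s (jhat j f₀) = β • jhat j f₀) :
    (∀ x, τ (j x) = j x) ∧ s (jhat j e₀) = β • jhat j e₀ ∧ s (jhat j c₀) = β • jhat j c₀ := by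
  have hfe : hermForm n F₀ q₀ f₀ e₀ = 1 := hermForm_symm_one hF₀ hef
  have hec : hermForm n F₀ q₀ e₀ c₀ = 0 := hermForm_symm_zero hF₀ hce
  have hfc : hermForm n F₀ q₀ f₀ c₀ = 0 := hermForm_symm_zero hF₀ hcf
  -- rational isotropic vectors
  have hiso : ∀ t l : F₀, t + t ^ q₀ + l ^ (q₀ + 1) = 0 →
      hermForm n F₀ q₀ (e₀ + t • f₀ + l • c₀) (e₀ + t • f₀ + l • c₀) = 0 := by
    intro t l h
    simp only [hermForm_add_left, hermForm_add_right hF₀, hermForm_smul_left, hermForm_smul_right, hee, hff, hef, hfe,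
      hce, hcf, hec, hfc, hcc, pow_succ]
    linear_combination h
  -- the forms in the big field
  set e := jhat j e₀ with he
  set f := jhat j f₀ with hf
  set c := jhat j c₀ with hc
  have hform : ∀ {u v : Fin n → F₀} {y : F₀}, hermForm n F₀ q₀ u v = y → hermForm n F q (jhat j u) (jhat j v) = j y := by
    rintro u v y rfl
    exact jhat_form j hj u v
  have Hee : hermForm n F q e e = 0 := by rw [hform hee, map_zero]
  have Hff : hermForm n F q f f = 0 := by rw [hform hff, map_zero]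
  have Hef : hermForm n F q e f = 1 := by rw [hform hef, map_one]
  have Hfe : hermForm n F q f e = 1 := by rw [hform hfe, map_one]
  have Hce : hermForm n F q c e = 0 := by rw [hform hce, map_zero]
  have Hcf : hermForm n F q c f = 0 := by rw [hform hcf, map_zero]
  have Hec : hermForm n F q e c = 0 := by rw [hform hec, map_zero]
  have Hfc : hermForm n F q f c = 0 := by rw [hform hfc, map_zero]
  have Hcc : hermForm n F q c c = 1 := by rw [hform hcc, map_one]
  have he0 : e ≠ 0 := by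
    intro h0
    rw [h0, hermForm_zero_left] at Hef
    exact zero_ne_one Hef
  obtain ⟨α, hα⟩ : ∃ α : F, s e = α • e := heig e₀ hee
  set W := s c with hW
  -- the fundamental relations
  have key : ∀ t l : F₀, t + t ^ q₀ + l ^ (q₀ + 1) = 0 → ∃ G : F,
      (α • e + (τ (j t) * β) • f + τ (j l) • W = G • (e + j t • f + j l • c)) ∧
      α + τ (j l) * hermForm n F q W f = G ∧
      τ (j t) * β + τ (j l) * hermForm n F q W e = G * j t ∧
      τ (j l) * hermForm n F q W c = G * j l := by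
    intro t l h
    obtain ⟨G, hG⟩ := heig _ (hiso t l h)
    have h1 : jhat j (e₀ + t • f₀ + l • c₀) = e + j t • f + j l • c := by
      rw [jhat_add, jhat_add, jhat_smul, jhat_smul]
    rw [h1, hadd, hadd, hsmul, hsmul, hα, hβ, ← hW, smul_smul] at hG
    refine ⟨G, hG, ?_, ?_, ?_⟩
    · have h2 := congrArg (fun v => hermForm n F q v f) hG
      simp only [hermForm_add_left, hermForm_smul_left, Hef, Hff, Hcf] at h2
      linear_combination h2
    · have h2 := congrArg (fun v => hermForm n F q v e) hG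
      simp only [hermForm_add_left, hermForm_smul_left, Hee, Hfe, Hce] at h2
      linear_combination h2
    · have h2 := congrArg (fun v => hermForm n F q v c) hG
      simp only [hermForm_add_left, hermForm_smul_left, Hec, Hfc, Hcc] at h2
      linear_combination h2
  -- a trace-zero element
  obtain ⟨ε, hε0, hεq⟩ := exists_trace_zero hF₀
  have hjε : j ε ≠ 0 := by
    rw [Ne, map_eq_zero]
    exact hε0
  set κ := τ (j ε) * β * (j ε)⁻¹ with hκ
  have hG : ∀ t l : F₀, t + t ^ q₀ + l ^ (q₀ + 1) = 0 → ∀ G : F, (α + τ (j l) * hermForm n F q W f = G) →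
      (τ (j t) * β + τ (j l) * hermForm n F q W e = G * j t) → G = κ := by
    intro t l h G h1 h2
    have h' : (t + ε) + (t + ε) ^ q₀ + l ^ (q₀ + 1) = 0 := by
      rw [pow_q_add hF₀, hεq]
      linear_combination h
    obtain ⟨G', -, h3, h4, -⟩ := key _ _ h'
    have hGG : G' = G := by rw [← h3, h1]
    rw [hGG] at h4
    rw [map_add, map_add] at h4
    have h5 : G * j ε = τ (j ε) * β := by linear_combination h2 - h4
    rw [hκ]
    field_simp
    linear_combination h5
  -- the value at `e`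
  have h00 : (0 : F₀) + 0 ^ q₀ + 0 ^ (q₀ + 1) = 0 := by
    rw [zero_pow_q hF₀, zero_pow (by omega)]
    ring
  have hακ : α = κ := by
    obtain ⟨G, -, h1, h2, -⟩ := key 0 0 h00
    have := hG 0 0 h00 G h1 h2
    simp only [map_zero, zero_mul, add_zero] at h1
    rw [h1, this]
  have hκ0 : κ ≠ 0 := by
    intro h0
    rw [hακ, h0, zero_smul] at hα
    exact he0 (hinj _ hα)
  -- the unit vector
  obtain ⟨t₁, ht₁⟩ := exists_trace_eq hF₀ (c := -1) (by rw [pow_q_neg hF₀, one_pow])
  have ht₁' : t₁ + t₁ ^ q₀ + (1 : F₀) ^ (q₀ + 1) = 0 := by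
    rw [one_pow, ht₁]
    ring
  obtain ⟨G₁, hE₁, h11, h12, h13⟩ := key t₁ 1 ht₁'
  have hG₁ := hG t₁ 1 ht₁' G₁ h11 h12
  simp only [map_one, one_mul, mul_one] at h13
  have hτ : ∀ x, τ (j x) = j x := by
    intro l
    by_cases hl : l = 0
    · simp [hl]
    obtain ⟨t, ht⟩ := exists_trace_eq hF₀ (c := -(l ^ (q₀ + 1))) (by rw [pow_q_neg hF₀, norm_pow_q hF₀])
    have ht' : t + t ^ q₀ + l ^ (q₀ + 1) = 0 := by
      rw [ht]
      ring
    obtain ⟨G, -, h1, h2, h3⟩ := key t l ht'
    have h4 := hG t l ht' G h1 h2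
    rw [h13, hG₁, h4] at h3
    have := mul_right_cancel₀ hκ0 (h3.trans (mul_comm _ _))
    exact this
  have hκβ : κ = β := by
    rw [hκ, hτ]
    field_simp
  have hαβ : α = β := hακ.trans hκβ
  refine ⟨hτ, by rw [hα, hαβ], ?_⟩
  -- `W = β c`
  rw [hG₁, hκβ, hαβ, hτ] at hE₁
  simp only [map_one, one_smul] at hE₁
  have h9 : β • e + (j t₁ * β) • f + W = β • (e + j t₁ • f + c) := hE₁
  have h10 : W = β • (e + j t₁ • f + c) - (β • e + (j t₁ * β) • f) := by
    rw [← h9]
    abel
  rw [h10]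
  funext i
  simp only [Pi.sub_apply, Pi.smul_apply, Pi.add_apply, smul_eq_mul]
  ring

end Core

/-- **Rigidity over a subfield.** -/
theorem scalar_of_rational_iso (hF : Fintype.card F = q ^ 2) (hF₀ : Fintype.card F₀ = q₀ ^ 2) (j : F₀ →+* F)
    (hj : ∀ x, (j x) ^ q = j (x ^ q₀)) (hm : 1 ≤ m)
    (s : (Fin (2 + m) → F) → (Fin (2 + m) → F)) (τ : F ≃+* F)
    (hadd : ∀ x y, s (x + y) = s x + s y) (hsmul : ∀ (c : F) x, s (c • x) = τ c • s x)
    (hinj : ∀ x, s x = 0 → x = 0)
    (heig : ∀ a : Fin (2 + m) → F₀, hermForm (2 + m) F₀ q₀ a a = 0 → ∃ l : F, s (jhat j a) = l • jhat j a) :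
    (∀ x, τ (j x) = j x) ∧ ∃ β : F, ∀ v : Fin (2 + m) → F₀, s (jhat j v) = β • jhat j v := by
  classical
  obtain ⟨e₀, f₀, hP⟩ := exists_HP (m := m) hF₀
  obtain ⟨β, hβ⟩ : ∃ β : F, s (jhat j f₀) = β • jhat j f₀ := heig f₀ hP.ff
  have hunit : ∀ i : Fin m, hermForm (2 + m) F₀ q₀ (inc (Pi.single i 1)) (inc (Pi.single i 1)) = 1 := by
    intro i
    rw [hermForm_inc, hermForm_apply]
    simp [Pi.single_apply, apply_ite (· ^ q₀), zero_pow_q hF₀, Finset.sum_ite_eq']
  have hcore := fun i : Fin m => triple hF hF₀ j hj s τ hadd hsmul hinj heig (c₀ := inc (Pi.single i 1)) hP.ee hP.ff hP.ef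
    (hP.inc_e hF₀ _) (hP.inc_f hF₀ _) (hunit i) hβ
  let i₀ : Fin m := ⟨0, by omega⟩
  have hτ := (hcore i₀).1
  have he := (hcore i₀).2.1
  refine ⟨hτ, β, fun v => ?_⟩
  have hinc : ∀ w : Fin m → F₀, s (jhat j (inc w)) = β • jhat j (inc w) := by
    intro w
    have h1 : ∀ A : Finset (Fin m), s (jhat j (inc (∑ i ∈ A, w i • Pi.single i 1))) =
        β • jhat j (inc (∑ i ∈ A, w i • Pi.single i 1)) := by
      intro A
      induction A using Finset.induction_on with
      | empty =>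
        simp only [Finset.sum_empty, inc_zero, jhat_zero, smul_zero]
        have := hsmul 0 0
        simpa using this
      | insert a A ha ih =>
        rw [Finset.sum_insert ha, inc_add, inc_smul, jhat_add, jhat_smul, hadd, hsmul, hτ, ih, (hcore a).2.2, smul_add,
          smul_comm]
    have h2 := h1 Finset.univ
    have h3 : ∑ i ∈ Finset.univ, w i • (Pi.single i (1 : F₀) : Fin m → F₀) = w := by
      funext k
      simp [Finset.sum_apply, Pi.single_apply]
    rwa [h3] at h2
  have hdec := hP.decomp hF₀ v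
  conv_lhs => rw [hdec]
  conv_rhs => rw [hdec]
  rw [jhat_add, jhat_add, jhat_smul, jhat_smul, hadd, hadd, hsmul, hsmul, hτ, hτ, he, hβ, hinc, smul_add, smul_add,
    smul_comm, smul_comm (j _) β (jhat j f₀)]

end Cfsg.Agent.Lib.Classical.HermBal.Scalar
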