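import Mathlib
import Cfsg.Agent.Lib.Classical.HermBal.Scalar
import Cfsg.Agent.Lib.Classical.Herm.Descent

/-!
# Block lemma and the action of automorphisms on root subgroups of `PSU`
-/

set_option autoImplicit false
set_option linter.unusedSectionVars false
set_option linter.unusedSimpArgs false
set_option linter.unusedVariables false

open Cfsg
open Cfsg.Agent.Lib.Classical.Herm.Basic Cfsg.Agent.Lib.Classical.Herm.Block
open Cfsg.Agent.Lib.Classical.Herm.Subfield Cfsg.Agent.Lib.Classical.Herm.Tv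
open Cfsg.Agent.Lib.Classical.Herm.Comm Cfsg.Agent.Lib.Classical.Herm.Unip
open Cfsg.Agent.Lib.Classical.Herm.Abar Cfsg.Agent.Lib.Classical.Herm.Psi
open Cfsg.Agent.Lib.Classical.Herm.SU Cfsg.Agent.Lib.Classical.Herm.AutMain
open Cfsg.Agent.Lib.Classical.Herm.GU
open MulAction

namespace Cfsg.Agent.Lib.Classical.HermBal.BlockL

section Gen

variable {S G : Type*} [Group G] [MulAction G S]

/-- **Block lemma.** -/
theorem block_prime {p : ℕ} (hp1 : p ≠ 1) (X : Set S) [Finite X] (L : Subgroup G) (hLX : ∀ l ∈ L, ∀ P ∈ X, l • P ∈ X)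
    (perp : S → S → Prop) (hsymm : ∀ P R, perp P R → perp R P) (U : Set G)
    (hUn : ∀ u ∈ U, ∀ l ∈ L, u * l * u⁻¹ ∈ L)
    (hcop : ∀ P ∈ X, (Nat.card (orbit L P)).Coprime p)
    (H1 : ∀ P ∈ X, ∀ R ∈ X, ∀ R' ∈ X, ¬ perp P R → ¬ perp P R' → ∃ u ∈ U, u • P = P ∧ u • R = R')
    (H2 : ∀ P ∈ X, ∀ R ∈ X, R ≠ P → perp P R → (∃ u ∈ U, u • P = P ∧ ¬ perp R (u • R)) ∨
      (p ∣ Nat.card {Z | Z ∈ X ∧ perp P Z ∧ perp R Z} ∧
        ∀ Z ∈ X, perp P Z → perp R Z → Z ≠ P → ∃ u ∈ U, u • P = P ∧ u • R = Z))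
    (H3 : ∀ P ∈ X, ∀ R ∈ X, perp P R → ∃ Z ∈ X, ¬ perp P Z ∧ ¬ perp R Z)
    (H4 : p ∣ Nat.card X) : ∀ l ∈ L, ∀ P ∈ X, l • P = P := by
  have hinv : ∀ P : S, ∀ u ∈ U, u • P = P → ∀ R ∈ orbit L P, u • R ∈ orbit L P := by
    rintro P u hu hP _ ⟨l, rfl⟩
    refine ⟨⟨u * l.1 * u⁻¹, hUn u hu l.1 l.2⟩, ?_⟩
    change (u * l.1 * u⁻¹) • P = u • (l.1 • P)
    rw [mul_smul, mul_smul]
    congr 2
    rw [inv_smul_eq_iff, hP]
  have hX : ∀ P ∈ X, ∀ R ∈ orbit L P, R ∈ X := by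
    rintro P hP _ ⟨l, rfl⟩
    exact hLX l.1 l.2 P hP
  have step1 : ∀ P ∈ X, ∀ R ∈ orbit L P, ¬ perp P R → ∀ R' ∈ X, ¬ perp P R' → R' ∈ orbit L P := by
    intro P hP R hR hPR R' hR' hPR'
    obtain ⟨u, hu, hu1, hu2⟩ := H1 P hP R (hX P hP R hR) R' hR' hPR hPR'
    rw [← hu2]
    exact hinv P u hu hu1 R hR
  have step2 : ∀ P ∈ X, ∀ R ∈ orbit L P, ¬ perp P R → ∀ R' ∈ X, R' ∈ orbit L P := by
    intro P hP R hR hPR R' hR'
    by_cases hp : perp P R'
    swap
    · exact step1 P hP R hR hPR R' hR' hp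
    obtain ⟨Z, hZ, hPZ, hR'Z⟩ := H3 P hP R' hR' hp
    have hZP : Z ∈ orbit L P := step1 P hP R hR hPR Z hZ hPZ
    have he : orbit L Z = orbit L P := orbit_eq_iff.2 hZP
    rw [← he]
    refine step1 Z hZ P ?_ (fun h => hPZ (hsymm _ _ h)) R' hR' (fun h => hR'Z (hsymm _ _ h))
    rw [he]
    exact mem_orbit_self P
  have hnotdvd : ∀ P ∈ X, ¬ p ∣ Nat.card (orbit L P) := by
    intro P hP hd
    exact hp1 (Nat.eq_one_of_dvd_coprimes (hcop P hP) hd (dvd_refl p))
  have step3 : ∀ P ∈ X, ¬ (∀ R' ∈ X, R' ∈ orbit L P) := by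
    intro P hP hall
    have he : orbit L P = X := Set.Subset.antisymm (hX P hP) hall
    apply hnotdvd P hP
    rw [he]
    exact H4
  intro l hl P hP
  by_contra hne
  set R := l • P with hR
  have hRo : R ∈ orbit L P := ⟨⟨l, hl⟩, rfl⟩
  have hRX : R ∈ X := hLX l hl P hP
  have he : orbit L R = orbit L P := orbit_eq_iff.2 hRo
  by_cases hperp : perp P R
  · rcases H2 P hP R hRX hne hperp with ⟨u, hu, hu1, hu2⟩ | ⟨hdvd, htr⟩
    · have hR2 : u • R ∈ orbit L P := hinv P u hu hu1 R hRo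
      apply step3 R hRX
      refine step2 R hRX (u • R) ?_ hu2
      rw [he]
      exact hR2
    · have hO : orbit L P = {Z | Z ∈ X ∧ perp P Z ∧ perp R Z} := by
        ext Z
        constructor
        · intro hZ
          refine ⟨hX P hP Z hZ, ?_, ?_⟩
          · by_contra hc
            exact step3 P hP (step2 P hP Z hZ hc)
          · by_contra hc
            have hZ' : Z ∈ orbit L R := by rw [he]; exact hZ
            exact step3 R hRX (step2 R hRX Z hZ' hc)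
        · rintro ⟨hZ, h1, h2⟩
          by_cases hZP : Z = P
          · rw [hZP]
            exact mem_orbit_self P
          · obtain ⟨u, hu, hu1, hu2⟩ := htr Z hZ h1 h2 hZP
            rw [← hu2]
            exact hinv P u hu hu1 R hRo
      apply hnotdvd P hP
      rw [hO]
      exact hdvd
  · exact step3 P hP (step2 P hP R hRo hperp)

theorem coprime_orbit {p : ℕ} (L : Subgroup G) (hL : (Nat.card L).Coprime p) (P : S) :
    (Nat.card (orbit L P)).Coprime p := by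
  have h3 : (stabilizer L P).index = Nat.card (orbit L P) := index_stabilizer L P
  rw [← h3]
  exact Nat.Coprime.coprime_dvd_left (Subgroup.index_dvd_card _) hL

end Gen

section Act

/-- The action of automorphisms on subgroups. -/
@[instance_reducible] def actSub (T : Type*) [Group T] : MulAction (MulAut T) (Subgroup T) where
  smul α H := H.map α.toMonoidHom
  one_smul H := by
    change H.map (1 : MulAut T).toMonoidHom = H
    ext x
    simp
  mul_smul a b H := by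
    change H.map (a * b).toMonoidHom = (H.map b.toMonoidHom).map a.toMonoidHom
    rw [Subgroup.map_map]
    rfl

/-- Elementwise commuting subgroups. -/
def Perp {T : Type*} [Group T] (P R : Subgroup T) : Prop := ∀ x ∈ P, ∀ y ∈ R, x * y = y * x

theorem perp_symm {T : Type*} [Group T] (P R : Subgroup T) (h : Perp P R) : Perp R P :=
  fun x hx y hy => (h y hy x hx).symm

end Act

section Points

variable {F : Type*} [Field F] [Fintype F] {q n : ℕ}

local notation "⟪" x ", " y "⟫" => hermForm _ _ q x y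

open _root_.Classical in
/-- The root subgroup attached to a vector. -/
noncomputable def A (hF : Fintype.card F = q ^ 2) (e : Fin n → F) : Subgroup (PSU n F q) :=
  if he : ⟪e, e⟫ = 0 then Abar hF he else ⊥

theorem A_eq (hF : Fintype.card F = q ^ 2) {e : Fin n → F} (he : ⟪e, e⟫ = 0) : A hF e = Abar hF he := by
  rw [A, dif_pos he]

attribute [local instance] actSub

theorem smul_def' {T : Type*} [Group T] (α : MulAut T) (H : Subgroup T) : α • H = H.map α.toMonoidHom := rfl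

theorem A_smul (hF : Fintype.card F = q ^ 2) {e : Fin n → F} (he : ⟪e, e⟫ = 0) {c : F} (hc : c ≠ 0) :
    A hF (c • e) = A hF e := by
  rw [A_eq hF he, A_eq hF (iso_smul hF he c), Abar_smul hF he hc]

theorem A_conj (hF : Fintype.card F = q ^ 2) (s : SU n F q) {e : Fin n → F} (he : ⟪e, e⟫ = 0) :
    MulAut.conj (piSU n F q s) • A hF e = A hF (act s e) := by
  rw [A_eq hF he, A_eq hF (iso_act s he), smul_def', Abar_conj]

theorem A_psi (hF : Fintype.card F = q ^ 2) (g : GU n F q) (τ : F ≃+* F) {e : Fin n → F} (he : ⟪e, e⟫ = 0) :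
    (deltaOf g * phiOf τ : MulAut (PSU n F q)) • A hF e = A hF (Th g τ e) := by
  rw [A_eq hF he, A_eq hF (iso_Th g τ he), smul_def', ← psi_eq, psi_map_Abar]

theorem A_inj (hF : Fintype.card F = q ^ 2) (hn : 3 ≤ n) {e e' : Fin n → F} (he : ⟪e, e⟫ = 0) (he' : ⟪e', e'⟫ = 0)
    (he0 : e ≠ 0) (h : A hF e = A hF e') : ∃ a : F, a ≠ 0 ∧ e' = a • e := by
  rw [A_eq hF he, A_eq hF he'] at h
  exact smul_of_Abar_eq hF hn he he' he0 h

theorem A_perp_of (hF : Fintype.card F = q ^ 2) {e e' : Fin n → F} (he : ⟪e, e⟫ = 0) (he' : ⟪e', e'⟫ = 0)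
    (hs : ⟪e, e'⟫ = 0) : Perp (A hF e) (A hF e') := by
  rw [A_eq hF he, A_eq hF he']
  exact Abar_comm_of_perp hF he he' hs

theorem of_A_perp (hF : Fintype.card F = q ^ 2) (hn : 3 ≤ n) {e e' : Fin n → F} (he : ⟪e, e⟫ = 0)
    (he' : ⟪e', e'⟫ = 0) (he0 : e ≠ 0) (h : Perp (A hF e) (A hF e')) : ⟪e, e'⟫ = 0 := by
  rw [A_eq hF he, A_eq hF he'] at h
  exact perp_of_Abar_comm hF hn he he' he0 h

/-- The Eichler element carrying `b` to `b'` and fixing `a`. -/
theorem siegel_move (hF : Fintype.card F = q ^ 2) {a b b' : Fin n → F} {t : F} (ha : ⟪a, a⟫ = 0) (hb : ⟪b, b⟫ = 0)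
    (hb' : ⟪b', b'⟫ = 0) (ht : ⟪b, a⟫ = t) (ht' : ⟪b', a⟫ = t) (ht0 : t ≠ 0) :
    ∃ (hw : ⟪t⁻¹ • (b' - b), a⟫ = 0)
      (hκ : ⟪b, t⁻¹ • (b' - b)⟫ * t⁻¹ + (⟪b, t⁻¹ • (b' - b)⟫ * t⁻¹) ^ q + ⟪t⁻¹ • (b' - b), t⁻¹ • (b' - b)⟫ = 0),
      act (siegel hF ha hw hκ) a = a ∧ act (siegel hF ha hw hκ) b = b' := by
  have hw : ⟪t⁻¹ • (b' - b), a⟫ = 0 := by
    rw [hermForm_smul_left, hermForm_sub_left, ht, ht', sub_self, mul_zero]
  have hκ : ⟪b, t⁻¹ • (b' - b)⟫ * t⁻¹ + (⟪b, t⁻¹ • (b' - b)⟫ * t⁻¹) ^ q + ⟪t⁻¹ • (b' - b), t⁻¹ • (b' - b)⟫ = 0 := by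
    simp only [hermForm_smul_left, hermForm_smul_right, hermForm_sub_left, hermForm_sub_right hF, hb, hb', mul_pow,
      pow_q_sub hF, pow_q_pow_q hF, zero_pow_q hF, sub_zero, zero_sub, sub_self, hermForm_pow_q hF, inv_pow]
    ring
  refine ⟨hw, hκ, ?_, ?_⟩
  · rw [act_siegel, ha, hermForm_symm_zero hF hw]
    simp
  · rw [act_siegel, ht, smul_smul, mul_inv_cancel₀ ht0, one_smul]
    funext i
    simp only [Pi.add_apply, Pi.sub_apply, Pi.smul_apply, smul_eq_mul]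
    field_simp
    ring

end Points

end Cfsg.Agent.Lib.Classical.HermBal.BlockL
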