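import Mathlib
import Cfsg.Agent.Lib.Classical.HermBal.Block
import Cfsg.Agent.Lib.Classical.Herm.LevElt

/-!
# Involutory semilinear similarities of the Hermitian space: the fixed space
-/

set_option autoImplicit false
set_option linter.unusedSectionVars false
set_option linter.unusedSimpArgs false
set_option linter.unusedVariables false
set_option linter.style.haveILetI false

open scoped Matrix
open Cfsg MulAction Module
open Cfsg.Agent.Lib.Classical.Herm.Basic Cfsg.Agent.Lib.Classical.Herm.Block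
open Cfsg.Agent.Lib.Classical.Herm.Subfield Cfsg.Agent.Lib.Classical.Herm.Tv
open Cfsg.Agent.Lib.Classical.Herm.Comm Cfsg.Agent.Lib.Classical.Herm.Unip
open Cfsg.Agent.Lib.Classical.Herm.Abar Cfsg.Agent.Lib.Classical.Herm.Psi
open Cfsg.Agent.Lib.Classical.Herm.SU Cfsg.Agent.Lib.Classical.Herm.AutMain
open Cfsg.Agent.Lib.Classical.Herm.AutStruct Cfsg.Agent.Lib.Classical.Herm.Descent
open Cfsg.Agent.Lib.Classical.Herm.Simple Cfsg.Agent.Lib.Classical.Herm.GU
open Cfsg.Agent.Lib.Classical.Herm.LevElt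
open Cfsg.Agent.Lib.Classical.HermBal.BlockL

namespace Cfsg.Agent.Lib.Classical.HermBal.Inv1

variable {F : Type*} [Field F] [Fintype F] {q n : ℕ}

local notation "⟪" x ", " y "⟫" => hermForm _ _ q x y

/-- The fixed subfield of `x ↦ x ^ q`. -/
noncomputable def Kq (hF : Fintype.card F = q ^ 2) : Subfield F := RingHom.eqLocusField (sigma hF) (RingHom.id F)

theorem mem_Kq {hF : Fintype.card F = q ^ 2} {x : F} : x ∈ Kq hF ↔ x ^ q = x := Iff.rfl

theorem card_Kq (hF : Fintype.card F = q ^ 2) : Nat.card (Kq hF) = q := card_fixed hF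

theorem ksmul {hF : Fintype.card F = q ^ 2} (k : Kq hF) (x : Fin n → F) : k • x = (k : F) • x := rfl

/-- An involutory semilinear similarity. -/
structure SData (hF : Fintype.card F = q ^ 2) (S : (Fin n → F) → (Fin n → F)) (ν : F) : Prop where
  add : ∀ x y, S (x + y) = S x + S y
  smul : ∀ (c : F) x, S (c • x) = c ^ q • S x
  inv : ∀ x, S (S x) = x
  form : ∀ x y, ⟪S x, S y⟫ = ν * ⟪y, x⟫
  nu : ν = 1 ∨ ν = -1

section Basic

variable {hF : Fintype.card F = q ^ 2} {S : (Fin n → F) → (Fin n → F)} {ν : F} (hS : SData hF S ν)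
include hS

theorem nu_mul : ν * ν = 1 := by
  rcases hS.nu with rfl | rfl <;> ring

theorem nu_ne : ν ≠ 0 := by
  intro h
  have := nu_mul hS
  rw [h, mul_zero] at this
  exact zero_ne_one this

theorem nu_q : ν ^ q = ν := by
  rcases hS.nu with rfl | rfl
  · exact one_pow _
  · rw [pow_q_neg hF, one_pow]

theorem S_zero : S 0 = 0 := by
  have := hS.add 0 0
  simpa using this

theorem S_neg (x : Fin n → F) : S (-x) = - S x := by
  have h := hS.add x (-x)
  rw [add_neg_cancel, S_zero hS] at h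
  exact (neg_eq_of_add_eq_zero_right h.symm).symm

theorem S_sub (x y : Fin n → F) : S (x - y) = S x - S y := by
  rw [sub_eq_add_neg, hS.add, S_neg hS, sub_eq_add_neg]

theorem S_ne {x : Fin n → F} (hx : x ≠ 0) : S x ≠ 0 := by
  intro h
  apply hx
  rw [← hS.inv x, h, S_zero hS]

/-- The value of the form on fixed vectors. -/
theorem form_fix {x y : Fin n → F} (hx : S x = x) (hy : S y = y) : ⟪x, y⟫ = ν * ⟪y, x⟫ := by
  have := hS.form x y
  rwa [hx, hy] at this

theorem pow_form_fix {x y : Fin n → F} (hx : S x = x) (hy : S y = y) : ⟪x, y⟫ ^ q = ν * ⟪x, y⟫ := by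
  rw [hermForm_pow_q hF]
  exact form_fix hS hy hx

/-- Fixed vectors form a subspace over the fixed field. -/
def V0 : Submodule (Kq hF) (Fin n → F) where
  carrier := {x | S x = x}
  add_mem' := by
    intro a b ha hb
    change S (a + b) = a + b
    rw [hS.add, show S a = a from ha, show S b = b from hb]
  zero_mem' := S_zero hS
  smul_mem' := by
    intro k x hx
    change S ((k : F) • x) = (k : F) • x
    rw [hS.smul, show S x = x from hx, mem_Kq.1 k.2]

theorem mem_V0 {x : Fin n → F} : x ∈ V0 hS ↔ S x = x := Iff.rfl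

variable {ε : F} (hε0 : ε ≠ 0) (hεq : ε ^ q = -ε) (h2 : (2 : F) ≠ 0)
include hε0 hεq h2

/-- Decomposition of a vector into two fixed vectors. -/
theorem decomp (x : Fin n → F) : ∃ u v, S u = u ∧ S v = v ∧ x = u + ε • v := by
  have h2q : (2 : F) ^ q = 2 := by
    rw [← one_add_one_eq_two, pow_q_add hF, one_pow]
  refine ⟨(2 : F)⁻¹ • (x + S x), (2 * ε)⁻¹ • (x - S x), ?_, ?_, ?_⟩
  · rw [hS.smul, hS.add, hS.inv, inv_pow, h2q, add_comm]
  · rw [hS.smul, S_sub hS, hS.inv, inv_pow, mul_pow, h2q, hεq]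
    funext i
    simp only [Pi.smul_apply, Pi.sub_apply, smul_eq_mul]
    field_simp
    ring
  · funext i
    simp only [Pi.smul_apply, Pi.sub_apply, Pi.add_apply, smul_eq_mul]
    field_simp
    ring

omit h2 in
/-- Nondegeneracy on the fixed space. -/
theorem nondeg_fix (h2 : (2 : F) ≠ 0) {x : Fin n → F} (hx : ∀ y, S y = y → ⟪x, y⟫ = 0) : x = 0 := by
  apply hermForm_nondegenerate_left hF n
  intro z
  obtain ⟨u, v, hu, hv, rfl⟩ := decomp hS hε0 hεq h2 z
  rw [hermForm_add_right hF, hermForm_smul_right, hx u hu, hx v hv]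
  simp

theorem decomp_unique {u v u' v' : Fin n → F} (hu : S u = u) (hv : S v = v) (hu' : S u' = u') (hv' : S v' = v')
    (h : u + ε • v = u' + ε • v') : u = u' ∧ v = v' := by
  have h1 : u - ε • v = u' - ε • v' := by
    have := congrArg S h
    rw [hS.add, hS.add, hS.smul, hS.smul, hu, hv, hu', hv', hεq, neg_smul, neg_smul] at this
    simpa [sub_eq_add_neg] using this
  have h3 : (2 * ε) • v = (2 * ε) • v' := by
    funext i
    have h4 := congrFun h i
    have h5 := congrFun h1 i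
    simp only [Pi.smul_apply, Pi.sub_apply, Pi.add_apply, smul_eq_mul] at h4 h5 ⊢
    linear_combination h4 - h5
  have hv2 : v = v' := smul_right_injective _ (mul_ne_zero h2 hε0) h3
  refine ⟨?_, hv2⟩
  rw [hv2] at h
  exact add_right_cancel h

omit hε0 hεq h2 in
/-- The dimension of the fixed space. -/
theorem finrank_V0 (hε0 : ε ≠ 0) (hεq : ε ^ q = -ε) (h2 : (2 : F) ≠ 0) : finrank (Kq hF) (V0 hS) = n := by
  classical
  have hq := two_le_q hF
  have hfin : Finite (V0 hS) := inferInstance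
  haveI : Module.Finite (Kq hF) (V0 hS) := Module.Finite.of_finite
  let f : V0 hS × V0 hS → (Fin n → F) := fun p => (p.1 : Fin n → F) + ε • (p.2 : Fin n → F)
  have hf : Function.Bijective f := by
    constructor
    · rintro ⟨⟨u, hu⟩, ⟨v, hv⟩⟩ ⟨⟨u', hu'⟩, ⟨v', hv'⟩⟩ h
      obtain ⟨h1, h3⟩ := decomp_unique hS hε0 hεq h2 hu hv hu' hv' h
      exact Prod.ext (Subtype.ext h1) (Subtype.ext h3)
    · intro x
      obtain ⟨u, v, hu, hv, rfl⟩ := decomp hS hε0 hεq h2 x
      exact ⟨⟨⟨u, hu⟩, ⟨v, hv⟩⟩, rfl⟩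
  have h1 : Nat.card (V0 hS × V0 hS) = Nat.card (Fin n → F) := Nat.card_congr (Equiv.ofBijective f hf)
  rw [Nat.card_prod, Nat.card_fun, Nat.card_fin, Nat.card_eq_fintype_card (α := F), hF,
    Module.natCard_eq_pow_finrank (K := Kq hF) (V := V0 hS), card_Kq] at h1
  have h3 : q ^ (finrank (Kq hF) (V0 hS) + finrank (Kq hF) (V0 hS)) = q ^ (2 * n) := by
    rw [pow_add, h1, pow_mul]
  have h4 := Nat.pow_right_injective (by omega : 2 ≤ q) h3
  omega

end Basic

section Eichler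

variable {hF : Fintype.card F = q ^ 2} {S : (Fin n → F) → (Fin n → F)} {ν : F} (hS : SData hF S ν)

/-- Data of an Eichler element compatible with `S`. -/
structure EData (hF : Fintype.card F = q ^ 2) (S : (Fin n → F) → (Fin n → F)) (ν : F) (z w : Fin n → F) (κ : F) : Prop where
  hz : ⟪z, z⟫ = 0
  hw : ⟪w, z⟫ = 0
  hκ : κ + κ ^ q + ⟪w, w⟫ = 0
  Sz : S z = z
  Sw : S w = ν • w
  Sκ : κ ^ q = ν * κ

/-- The Eichler element. -/
noncomputable def EE {hF : Fintype.card F = q ^ 2} {S : (Fin n → F) → (Fin n → F)} {ν : F} {z w : Fin n → F} {κ : F}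
    (h : EData hF S ν z w κ) : SU n F q := siegel hF h.hz h.hw h.hκ

theorem act_EE {z w : Fin n → F} {κ : F} (h : EData hF S ν z w κ) (x : Fin n → F) :
    act (EE h) x = x + (⟪x, z⟫ • w - ⟪x, w⟫ • z + (κ * ⟪x, z⟫) • z) := act_siegel _ _ _ _ _

include hS in
/-- Eichler elements commute with `S`. -/
theorem S_EE {z w : Fin n → F} {κ : F} (h : EData hF S ν z w κ) (x : Fin n → F) : S (act (EE h) x) = act (EE h) (S x) := by
  have hν := nu_mul hS
  have hSxz : ⟪S x, z⟫ = ν * ⟪z, x⟫ := by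
    have := hS.form x z
    rwa [h.Sz] at this
  have hSxw : ⟪S x, w⟫ = ⟪w, x⟫ := by
    have h1 := hS.form x w
    rw [h.Sw, hermForm_smul_right, nu_q hS] at h1
    exact mul_left_cancel₀ (nu_ne hS) h1
  rw [act_EE, act_EE, hS.add, hS.add, S_sub hS, hS.smul, hS.smul, hS.smul, h.Sz, h.Sw, hSxz, hSxw, mul_pow, h.Sκ,
    hermForm_pow_q hF, hermForm_pow_q hF, smul_smul]
  congr 2
  · rw [mul_comm]
  · congr 1
    ring

include hS in
theorem S_EE_of_fix {z w : Fin n → F} {κ : F} (h : EData hF S ν z w κ) {x : Fin n → F} (hx : S x = x) :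
    S (act (EE h) x) = act (EE h) x := by
  rw [S_EE hS, hx]

end Eichler

section Psi

variable {hF : Fintype.card F = q ^ 2} {S : (Fin n → F) → (Fin n → F)} {ν : F} (hS : SData hF S ν)
  {g : GU n F q} {σ : F ≃+* F} {μ : F} (hμ : μ ≠ 0) (hT : ∀ x, S x = μ • Th g σ x)
include hS hμ hT

theorem Th_eq (x : Fin n → F) : Th g σ x = μ⁻¹ • S x := by
  rw [hT, smul_smul, inv_mul_cancel₀ hμ, one_smul]

/-- An Eichler element is fixed by the automorphism. -/
theorem psiSU_EE {z w : Fin n → F} {κ : F} (h : EData hF S ν z w κ) : psiSU g σ (EE h) = EE h := by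
  apply ext_act
  intro y
  obtain ⟨x, rfl⟩ := Th_surjective g σ y
  rw [act_psiSU, Th_eq hS hμ hT, Th_eq hS hμ hT, S_EE hS, act_smul]

theorem beta_EE {z w : Fin n → F} {κ : F} (h : EData hF S ν z w κ) :
    (deltaOf g * phiOf σ : MulAut (PSU n F q)) (piSU n F q (EE h)) = piSU n F q (EE h) := by
  rw [← psi_eq, psi_pi, psiSU_EE hS hμ hT]

end Psi

/-- Product of two automorphisms. -/
theorem mul_delta_phi (hF : Fintype.card F = q ^ 2) (g g' : GU n F q) (τ σ : F ≃+* F) :
    (deltaOf g' * phiOf τ : MulAut (PSU n F q)) * (deltaOf g * phiOf σ) = deltaOf (g' * guMap hF τ g) * phiOf (τ * σ) := by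
  rw [deltaOf_mul hF, phiOf_mul, mul_assoc, ← mul_assoc (phiOf τ), phi_delta hF]
  simp only [mul_assoc]

/-- Equal automorphisms come from proportional unitary matrices. -/
theorem Th_of_delta_eq (hF : Fintype.card F = q ^ 2) (hn : 3 ≤ n) (h32 : ¬ (n = 3 ∧ q = 2)) {A B : GU n F q}
    (h : (deltaOf A : MulAut (PSU n F q)) = deltaOf B) :
    ∃ μ₀ : F, μ₀ ^ (q + 1) = 1 ∧ ∀ (ρ : F ≃+* F) x, Th B ρ x = μ₀ • Th A ρ x := by
  have h1 : (deltaOf (A⁻¹ * B) : MulAut (PSU n F q)) = 1 := by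
    change deltaHom hF (A⁻¹ * B) = 1
    rw [map_mul, map_inv]
    change (deltaOf A)⁻¹ * deltaOf B = 1
    rw [h, inv_mul_cancel]
  obtain ⟨μ₀, hμ₀, hG⟩ := scalar_of_delta hF hn h32 h1
  refine ⟨μ₀, hμ₀, fun ρ x => ?_⟩
  have h2 : (B.1 : Matrix (Fin n) (Fin n) F) = (A.1 : Matrix (Fin n) (Fin n) F) * Matrix.scalar (Fin n) μ₀ := by
    rw [← hG]
    change _ = ((A * (A⁻¹ * B) : GU n F q).1 : Matrix (Fin n) (Fin n) F)
    rw [mul_inv_cancel_left]
  rw [Th, Th, h2, ← Matrix.mulVec_mulVec, scalar_mulVec', Matrix.mulVec_smul]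

section Comm

variable {hF : Fintype.card F = q ^ 2} {S : (Fin n → F) → (Fin n → F)} {ν : F}
  (hS : SData hF S ν) {g : GU n F q} {σ : F ≃+* F} {μ : F} (hμ : μ ≠ 0) (hT : ∀ x, S x = μ • Th g σ x)
  (hn : 3 ≤ n) (h32 : ¬ (n = 3 ∧ q = 2))
include hS hμ hT hn h32

/-- An automorphism commuting with `β` has a multiple commuting with `S`. -/
theorem exists_d (r : ℕ) [Fact r.Prime] [CharP F r] (g' : GU n F q) (τ : F ≃+* F)
    (hcomm : (deltaOf g' * phiOf τ : MulAut (PSU n F q)) * (deltaOf g * phiOf σ) = (deltaOf g * phiOf σ) * (deltaOf g' * phiOf τ)) :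
    ∃ d : F, d ≠ 0 ∧ ∀ x, S (d • Th g' τ x) = d • Th g' τ (S x) := by
  classical
  rw [mul_delta_phi hF, mul_delta_phi hF, ringAut_comm r τ σ] at hcomm
  have hdel := mul_right_cancel hcomm
  obtain ⟨μ₀, hμ₀, hTh⟩ := Th_of_delta_eq hF hn h32 hdel.symm
  set T' := Th g' τ with hT'
  have hcomm2 : ∀ x, T' (Th g σ x) = μ₀ • Th g σ (T' x) := by
    intro x
    rw [hT', Th_comp hF, Th_comp hF, ringAut_comm r τ σ]
    exact hTh _ _
  set κ' := τ μ * μ₀ * μ⁻¹ with hκ'
  have hTS : ∀ x, T' (S x) = κ' • S (T' x) := by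
    intro x
    rw [hT x, hT', Th_smul, ← hT', hcomm2, hT (T' x), smul_smul, smul_smul]
    congr 1
    rw [hκ']
    field_simp
  -- the norm of `κ'`
  have hne : ∃ x₀, T' x₀ ≠ 0 := by
    refine ⟨Pi.single ⟨0, by omega⟩ 1, fun h0 => ?_⟩
    have h1 : T' 0 = 0 := by
      have := Th_add g' τ 0 0
      simpa using this
    have h3 := Th_injective hF g' τ (h0.trans h1.symm)
    have h4 := congrFun h3 ⟨0, by omega⟩
    simp at h4
  obtain ⟨x₀, hx₀⟩ := hne
  have hN : κ' ^ (q + 1) = 1 := by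
    have h1 : T' x₀ = (κ' * κ' ^ q) • T' x₀ := by
      conv_lhs => rw [← hS.inv x₀]
      rw [hTS, hTS, hS.smul, hS.inv, smul_smul]
    have h3 : (κ' * κ' ^ q - 1) • T' x₀ = 0 := by
      rw [sub_smul, ← h1, one_smul, sub_self]
    have h4 := (smul_eq_zero.1 h3).resolve_right hx₀
    rw [pow_succ, mul_comm]
    exact sub_eq_zero.1 h4
  obtain ⟨d, hd0, hd⟩ := exists_hilbert hF hN
  refine ⟨d, hd0, fun x => ?_⟩
  rw [hS.smul, hd, hTS, smul_smul, mul_comm d]

end Comm

end Cfsg.Agent.Lib.Classical.HermBal.Inv1
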