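import Mathlib
import Cfsg.Agent.Lib.Classical.HermBal.Block
import Cfsg.Agent.Lib.Classical.Herm.FieldCent

/-!
# The subgroup `PSU_n(q₀)` in `PSU_n(q)`
-/

set_option autoImplicit false
set_option linter.unusedSectionVars false
set_option linter.unusedSimpArgs false
set_option linter.unusedVariables false

open scoped Matrix
open Cfsg
open Cfsg.Agent.Lib.Classical.Herm.Basic Cfsg.Agent.Lib.Classical.Herm.Block
open Cfsg.Agent.Lib.Classical.Herm.Subfield Cfsg.Agent.Lib.Classical.Herm.Tv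
open Cfsg.Agent.Lib.Classical.Herm.Comm Cfsg.Agent.Lib.Classical.Herm.Unip
open Cfsg.Agent.Lib.Classical.Herm.Abar Cfsg.Agent.Lib.Classical.Herm.Psi
open Cfsg.Agent.Lib.Classical.Herm.SU Cfsg.Agent.Lib.Classical.Herm.AutMain
open Cfsg.Agent.Lib.Classical.Herm.AutStruct Cfsg.Agent.Lib.Classical.Herm.Descent
open Cfsg.Agent.Lib.Classical.Herm.FieldCent Cfsg.Agent.Lib.Classical.Herm.Simple
open Cfsg.Agent.Lib.Classical.Herm.GU
open Cfsg.Agent.Lib.Classical.HermBal.Scalar Cfsg.Agent.Lib.Classical.HermBal.BlockL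

namespace Cfsg.Agent.Lib.Classical.HermBal.Odd1

variable {F F₀ : Type*} [Field F] [Fintype F] [Field F₀] [Fintype F₀] {q q₀ n : ℕ}

theorem conj_eq_of_central {G : Type*} [Group G] {x w z : G} (y : G) (hx : x = w * z) (hz : z ∈ Subgroup.center G) :
    x * y * x⁻¹ = w * y * w⁻¹ := by
  have h1 : z * y = y * z := (Subgroup.mem_center_iff.1 hz y).symm
  rw [hx, _root_.mul_inv_rev, mul_assoc w z y, h1]
  group

theorem aut_mul_conj {T : Type*} [Group T] (β : MulAut T) (k : T) : β * MulAut.conj k = MulAut.conj (β k) * β := by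
  ext z
  simp [MulAut.conj_apply]

section Rho

variable (hF : Fintype.card F = q ^ 2) (hF₀ : Fintype.card F₀ = q₀ ^ 2) (j : F₀ →+* F)
  (hj : ∀ x, (j x) ^ q = j (x ^ q₀))

theorem det_map_j (M : Matrix (Fin n) (Fin n) F₀) : (M.map j).det = j M.det := by
  have := RingHom.map_det j M
  simpa [RingHom.mapMatrix_apply] using this.symm

/-- The embedding of `SU_n(q₀)`. -/
noncomputable def rho : SU n F₀ q₀ →* SU n F q where
  toFun s := mkSU ((mat s).map j)
    (by
      have h : (mat s).det = 1 := (s : Matrix.SpecialLinearGroup (Fin n) F₀).2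
      rw [det_map_j, h, map_one])
    (preserves_map_j hF hF₀ j hj (preserves_su s))
  map_one' := by
    apply Subtype.ext
    apply Subtype.ext
    change ((1 : Matrix (Fin n) (Fin n) F₀)).map j = 1
    simp
  map_mul' a b := by
    apply Subtype.ext
    apply Subtype.ext
    change (mat (a * b)).map j = (mat a).map j * (mat b).map j
    rw [mat_mul]
    exact Matrix.map_mul

theorem mat_rho (s : SU n F₀ q₀) : mat (rho hF hF₀ j hj s) = (mat s).map j := rfl

theorem act_rho (s : SU n F₀ q₀) (x : Fin n → F₀) : act (rho hF hF₀ j hj s) (jhat j x) = jhat j (act s x) := by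
  funext i
  simp [act, mat_rho, Matrix.mulVec, dotProduct, map_sum, map_mul, jhat]

/-- The map to `PSU_n(q)`. -/
noncomputable def psiR : SU n F₀ q₀ →* PSU n F q := (piSU n F q).comp (rho hF hF₀ j hj)

theorem psiR_apply (s : SU n F₀ q₀) : psiR hF hF₀ j hj s = piSU n F q (rho hF hF₀ j hj s) := rfl

/-- The image of `SU_n(q₀)`. -/
noncomputable def T0 : Subgroup (PSU n F q) := (psiR hF hF₀ j hj).range

theorem suToGU_rho (s : SU n F₀ q₀) : suToGU hF (rho hF hF₀ j hj s) = J hF hF₀ j hj (suToGU hF₀ s) := by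
  apply Subtype.ext
  apply Units.ext
  rfl

include hF in
theorem pi_eq_one_of_scalar {z : SU n F q} {μ : F} (h : ∀ x, act z x = μ • x) : piSU n F q z = 1 :=
  (QuotientGroup.eq_one_iff z).2 ((mem_center_iff hF).2 ⟨μ, h⟩)

include hF in
theorem scalar_of_pi_eq_one {z : SU n F q} (h : piSU n F q z = 1) : ∃ μ : F, ∀ x, act z x = μ • x :=
  (mem_center_iff hF).1 ((QuotientGroup.eq_one_iff z).1 h)

omit [Fintype F] in
theorem scalar_of_columns {M : Matrix (Fin n) (Fin n) F} {β : F}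
    (h : ∀ k, M *ᵥ (Pi.single k 1) = β • (Pi.single k 1)) : M = Matrix.scalar (Fin n) β := by
  apply Matrix.ext_of_mulVec_single
  intro k
  rw [h k]
  classical
  funext i
  simp [Matrix.scalar_apply, Matrix.mulVec_diagonal]

theorem jhat_single (k : Fin n) : jhat j (Pi.single k (1 : F₀) : Fin n → F₀) = Pi.single k 1 := by
  funext i
  by_cases h : i = k
  · subst h
    simp [jhat]
  · simp [jhat, h]

include hF in
/-- An element acting on the rational vectors as a scalar is trivial. -/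
theorem pi_eq_one_of_rational {z : SU n F q} {β : F} (h : ∀ v : Fin n → F₀, act z (jhat j v) = β • jhat j v) :
    piSU n F q z = 1 := by
  have h1 : mat z = Matrix.scalar (Fin n) β := by
    apply scalar_of_columns
    intro k
    have := h (Pi.single k 1)
    rwa [jhat_single] at this
  apply pi_eq_one_of_scalar hF (μ := β)
  intro x
  change mat z *ᵥ x = _
  rw [h1, scalar_mulVec']

theorem psiR_eq_one_of_scalar {g : SU n F₀ q₀} {μ : F₀} (h : ∀ x, act g x = μ • x) : psiR hF hF₀ j hj g = 1 := by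
  apply pi_eq_one_of_rational hF j (β := j μ)
  intro v
  rw [act_rho, h, jhat_smul]

section Field

variable (σ : F ≃+* F) (hjσ : ∀ y, σ (j y) = j y) (hjr : ∀ y, σ y = y → ∃ z, j z = y)
include hjσ

theorem fieldSU_rho (s : SU n F₀ q₀) : fieldSU σ (rho hF hF₀ j hj s) = rho hF hF₀ j hj s := by
  apply Subtype.ext
  apply Subtype.ext
  ext a b
  exact hjσ _

theorem phi_psiR (s : SU n F₀ q₀) : (phiOf σ : MulAut (PSU n F q)) (psiR hF hF₀ j hj s) = psiR hF hF₀ j hj s := by
  change psuOf (fieldSU σ) (piSU n F q (rho hF hF₀ j hj s)) = _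
  rw [psuOf_pi, fieldSU_rho hF hF₀ j hj σ hjσ]
  rfl

omit hjσ in
include hjr in
theorem exists_rho_of_fixed {s : SU n F q} (hs : fieldSU σ s = s) : ∃ s₀ : SU n F₀ q₀, rho hF hF₀ j hj s₀ = s := by
  have h1 : ∀ a b, σ (mat s a b) = mat s a b := by
    intro a b
    have h := congrArg (fun t : SU n F q => mat t a b) hs
    exact h
  obtain ⟨m, hm⟩ := exists_J hF hF₀ j hj (suToGU hF s) (fun a b => hjr _ (h1 a b))
  have hmm : (m.1 : Matrix (Fin n) (Fin n) F₀).map j = mat s := congrArg (fun w : GU n F q => (w.1 : Matrix (Fin n) (Fin n) F)) hm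
  have hdet : detGU n F₀ q₀ m = 1 := by
    apply Units.ext
    rw [coe_detGU]
    apply j.injective
    rw [← det_map_j, hmm, Units.val_one, map_one]
    exact (s : Matrix.SpecialLinearGroup (Fin n) F).2
  obtain ⟨s₀, hs₀⟩ := exists_su_of_det_one hF₀ m hdet
  refine ⟨s₀, ?_⟩
  apply Subtype.ext
  apply Subtype.ext
  change (mat s₀).map j = mat s
  rw [← hmm, hs₀]
  rfl

include hjr in
/-- `T0` is normal in the centraliser of the field automorphism. -/
theorem conj_T0 {k t : PSU n F q} (hk : (phiOf σ : MulAut (PSU n F q)) k = k) (ht : t ∈ T0 hF hF₀ j hj) :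
    k * t * k⁻¹ ∈ T0 hF hF₀ j hj := by
  obtain ⟨x, rfl⟩ := piSU_surjective k
  obtain ⟨s, rfl⟩ := ht
  have hz : piSU n F q (fieldSU σ x) = piSU n F q x := by
    rw [← psuOf_pi]
    exact hk
  have hc : (fieldSU σ x)⁻¹ * x ∈ Subgroup.center (SU n F q) := QuotientGroup.eq.1 hz
  have hfix : fieldSU σ (x * rho hF hF₀ j hj s * x⁻¹) = x * rho hF hF₀ j hj s * x⁻¹ := by
    rw [map_mul, map_mul, map_inv, fieldSU_rho hF hF₀ j hj σ hjσ]
    exact (conj_eq_of_central _ (by group) hc).symm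
  obtain ⟨s₀, hs₀⟩ := exists_rho_of_fixed hF hF₀ j hj σ hjr hfix
  refine ⟨s₀, ?_⟩
  rw [psiR_apply, hs₀, map_mul, map_mul, map_inv]
  rfl

end Field

section Lift

variable (σ : F ≃+* F) (hjσ : ∀ y, σ (j y) = j y) (hjr : ∀ y, σ y = y → ∃ z, j z = y)
  (hFix : Nat.card (fixF σ) = q₀ ^ 2) (hq₀ : ∀ x ∈ fixF σ, x ^ q = x ^ q₀)
  (hn : 3 ≤ n) (h32 : ¬ (n = 3 ∧ q = 2))
include hjr hFix hq₀ hn h32

/-- A rational lift of a fixed point of `φ`. -/
theorem exists_gu_of_fixed {k : PSU n F q} (hk : (phiOf σ : MulAut (PSU n F q)) k = k) :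
    ∃ m : GU n F₀ q₀, (deltaOf (J hF hF₀ j hj m) : MulAut (PSU n F q)) = MulAut.conj k := by
  obtain ⟨x, rfl⟩ := piSU_surjective k
  have hdu := deltaOf_suToGU hF x
  have hcomm : (phiOf σ * deltaOf (suToGU hF x) : MulAut (PSU n F q)) = deltaOf (suToGU hF x) * phiOf σ := by
    rw [hdu, aut_mul_conj, hk]
  obtain ⟨a, ha, hfix⟩ := exists_fixed_of_comm hF hn h32 σ hFix hq₀ _ hcomm
  obtain ⟨m, hm⟩ := exists_J hF hF₀ j hj (sc hF a ha * suToGU hF x) (by
    intro k l
    apply hjr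
    exact congrArg (fun w : GU n F q => (w.1 : Matrix (Fin n) (Fin n) F) k l) hfix)
  refine ⟨m, ?_⟩
  rw [hm, deltaOf_sc_mul, hdu]

theorem pow_mem_T0 (hinj : Function.Injective (MulAut.conj : PSU n F q →* MulAut (PSU n F q))) {k : PSU n F q}
    (hk : (phiOf σ : MulAut (PSU n F q)) k = k) : k ^ (q₀ + 1) ∈ T0 hF hF₀ j hj := by
  obtain ⟨m, hm⟩ := exists_gu_of_fixed hF hF₀ j hj σ hjr hFix hq₀ hn h32 hk
  have hdet : detGU n F₀ q₀ (m ^ (q₀ + 1)) = 1 := by
    rw [map_pow]
    apply Units.ext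
    rw [Units.val_pow_eq_pow_val, coe_detGU]
    exact det_pow_succ hF₀ _ m.2
  obtain ⟨s₀, hs₀⟩ := exists_su_of_det_one hF₀ _ hdet
  refine ⟨s₀, ?_⟩
  apply hinj
  rw [psiR_apply, ← deltaOf_suToGU hF, suToGU_rho, ← hs₀, map_pow, map_pow]
  have h1 : (deltaOf ((J hF hF₀ j hj m) ^ (q₀ + 1)) : MulAut (PSU n F q)) = (deltaOf (J hF hF₀ j hj m)) ^ (q₀ + 1) :=
    map_pow (deltaHom hF) _ _
  rw [h1, hm]

end Lift

/-- Elements of order `p`. -/
theorem dvd_card_of_mem {G : Type*} [Group G] [Finite G] {p : ℕ} (hp : p.Prime) {H : Subgroup G} {x : G} (hx : x ∈ H)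
    (h1 : x ^ p = 1) (h2 : x ≠ 1) : p ∣ Nat.card H := by
  have : Fact p.Prime := ⟨hp⟩
  have h3 : orderOf x = p := orderOf_eq_prime h1 h2
  rw [← h3, ← Subgroup.orderOf_mk x hx]
  exact orderOf_dvd_natCard _

section Diag

variable (hn : 3 ≤ n) {p : ℕ} (hp : p.Prime) (hd : p ∣ q₀ + 1)
include hn hp hd

/-- `p ∣ q₀ + 1` gives an element of order `p` in `T0`. -/
theorem dvd_T0_of_dvd (hF₀2 : 2 ≤ q₀) : p ∣ Nat.card (T0 (n := n) hF hF₀ j hj) := by
  classical
  have : Fact p.Prime := ⟨hp⟩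
  have hcard : p ∣ Nat.card F₀ˣ := by
    rw [card_units hF₀]
    exact Dvd.dvd.mul_right hd _
  obtain ⟨u, hu⟩ := exists_prime_orderOf_dvd_card' p hcard
  set μ : F₀ := (u : F₀) with hμ
  have hμ0 : μ ≠ 0 := Units.ne_zero u
  have hμp : μ ^ p = 1 := by
    have := pow_orderOf_eq_one u
    rw [hu] at this
    have h2 := congrArg Units.val this
    simpa using h2
  have hμ1 : μ ≠ 1 := by
    intro h1
    have : u = 1 := Units.ext h1
    rw [this, orderOf_one] at hu
    exact hp.one_lt.ne hu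
  obtain ⟨t, ht⟩ := hd
  have hμq : μ ^ (q₀ + 1) = 1 := by
    rw [ht, pow_mul, hμp, one_pow]
  let i₀ : Fin n := ⟨0, by omega⟩
  let i₁ : Fin n := ⟨1, by omega⟩
  let i₂ : Fin n := ⟨2, by omega⟩
  have h01 : i₀ ≠ i₁ := by simp [i₀, i₁, Fin.ext_iff]
  have h02 : i₀ ≠ i₂ := by simp [i₀, i₂, Fin.ext_iff]
  have h12 : i₁ ≠ i₂ := by simp [i₁, i₂, Fin.ext_iff]
  let d : Fin n → F₀ := fun i => if i = i₀ then μ else if i = i₁ then μ⁻¹ else 1
  have hd0 : d i₀ = μ := by simp [d]
  have hd1 : d i₁ = μ⁻¹ := by simp [d, h01.symm]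
  have hd2 : d i₂ = 1 := by simp [d, h02.symm, h12.symm]
  have hdq : ∀ k, d k ^ (q₀ + 1) = 1 := by
    intro k
    simp only [d]
    split_ifs
    · exact hμq
    · rw [inv_pow, hμq, inv_one]
    · exact one_pow _
  have hdp : ∀ k, d k ^ p = 1 := by
    intro k
    simp only [d]
    split_ifs
    · exact hμp
    · rw [inv_pow, hμp, inv_one]
    · exact one_pow _
  have hdet : (Matrix.diagonal d).det = 1 := by
    rw [Matrix.det_diagonal, Finset.prod_eq_mul i₀ i₁ h01, hd0, hd1, mul_inv_cancel₀ hμ0]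
    · intro c _ hc
      simp only [d]
      rw [if_neg hc.2, if_neg hc.1]
    · simp
    · simp
  let s : SU n F₀ q₀ := mkSU (Matrix.diagonal d) hdet (preserves_diagonal d hdq)
  have hs : ∀ x, act s x = fun i => d i * x i := by
    intro x
    change Matrix.diagonal d *ᵥ x = _
    funext i
    rw [Matrix.mulVec_diagonal]
  apply dvd_card_of_mem hp (H := T0 hF hF₀ j hj) (x := psiR hF hF₀ j hj s) ⟨s, rfl⟩
  · rw [← map_pow]
    have h1 : s ^ p = 1 := by
      apply ext_act
      intro x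
      have h2 : ∀ (l : ℕ) x, act (s ^ l) x = fun i => d i ^ l * x i := by
        intro l
        induction l with
        | zero => intro x; simp
        | succ l ih =>
          intro x
          rw [pow_succ, act_mul, ih, hs]
          funext i
          ring
      rw [h2, act_one]
      funext i
      rw [hdp, one_mul]
    rw [h1, map_one]
  · intro h1
    obtain ⟨l, hl⟩ := scalar_of_pi_eq_one hF h1
    have h2 := fun k : Fin n => hl (jhat j (Pi.single k 1))
    have h3 := congrFun (h2 i₂) i₂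
    have h4 := congrFun (h2 i₀) i₀
    rw [act_rho, hs] at h3 h4
    simp only [jhat, Pi.single_eq_same, mul_one, Pi.smul_apply, smul_eq_mul, map_one, hd2, hd0] at h3 h4
    apply hμ1
    apply j.injective
    rw [map_one, h4, ← h3]

end Diag

section Normal

variable {p : ℕ} (hp : p.Prime) (h32₀ : ¬ (n = 3 ∧ q₀ = 2)) (hn : 3 ≤ n)

include hp h32₀ hn in
/-- Normal subgroups of order prime to `p` of `T0`. -/
theorem T0_normal (hpT : p ∣ Nat.card (T0 (n := n) hF hF₀ j hj)) (N : Subgroup (PSU n F q)) (hN : N ≤ T0 hF hF₀ j hj)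
    (hNn : ∀ t ∈ T0 hF hF₀ j hj, ∀ y ∈ N, t * y * t⁻¹ ∈ N) (hc : (Nat.card N).Coprime p) : N = ⊥ := by
  set P := N.comap (psiR hF hF₀ j hj) with hP
  have hPn : P.Normal := ⟨fun y hy g => by
    rw [hP, Subgroup.mem_comap] at hy ⊢
    rw [map_mul, map_mul, map_inv]
    exact hNn _ ⟨g, rfl⟩ _ hy⟩
  by_cases hex : ∃ g ∈ P, ¬ ∃ μ : F₀, ∀ x, act g x = μ • x
  · exfalso
    obtain ⟨g, hg, hgs⟩ := hex
    have htop := normal_eq_top hF₀ hn h32₀ P hPn g hg hgs
    have hTN : T0 hF hF₀ j hj ≤ N := by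
      rintro _ ⟨s, rfl⟩
      have : s ∈ P := by rw [htop]; trivial
      exact this
    have h1 : p ∣ Nat.card N := by
      have he : N = T0 hF hF₀ j hj := le_antisymm hN hTN
      rw [he]
      exact hpT
    exact hp.one_lt.ne' (Nat.eq_one_of_dvd_coprimes hc h1 (dvd_refl p))
  · push Not at hex
    rw [eq_bot_iff]
    intro y hy
    obtain ⟨s, rfl⟩ := hN hy
    obtain ⟨μ, hμ⟩ := hex s hy
    rw [Subgroup.mem_bot]
    exact psiR_eq_one_of_scalar hF hF₀ j hj hμ

end Normal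

end Rho

end Cfsg.Agent.Lib.Classical.HermBal.Odd1
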