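import Mathlib
import Cfsg.Agent.Lib.Classical.HermBal.Inv1
import Cfsg.Agent.Lib.Classical.HermBal.Odd1
import Cfsg.Agent.Lib.Classical.Symp.Aut.Balance

/-!
# The block argument for involutory semilinear similarities
-/

set_option autoImplicit false
set_option linter.unusedSectionVars false
set_option linter.unusedSimpArgs false
set_option linter.unusedVariables false
set_option linter.style.haveILetI false

open scoped Matrix
open Cfsg MulAction Module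
open Cfsg.Agent.Lib.Classical.Herm.Basic Cfsg.Agent.Lib.Classical.Herm.Block
open Cfsg.Agent.Lib.Classical.Herm.Subfield Cfsg.Agent.Lib.Classical.Herm.Tv
open Cfsg.Agent.Lib.Classical.Herm.Comm Cfsg.Agent.Lib.Classical.Herm.Unip
open Cfsg.Agent.Lib.Classical.Herm.Abar Cfsg.Agent.Lib.Classical.Herm.Psi
open Cfsg.Agent.Lib.Classical.Herm.SU Cfsg.Agent.Lib.Classical.Herm.AutMain
open Cfsg.Agent.Lib.Classical.Herm.AutStruct Cfsg.Agent.Lib.Classical.Herm.Descent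
open Cfsg.Agent.Lib.Classical.Herm.Simple Cfsg.Agent.Lib.Classical.Herm.GU
open Cfsg.Agent.Lib.Classical.HermBal.BlockL Cfsg.Agent.Lib.Classical.HermBal.Inv1
open Cfsg.Agent.Lib.Classical.HermBal.Odd1

namespace Cfsg.Agent.Lib.Classical.HermBal.Inv2

variable {F : Type*} [Field F] [Fintype F] {q n : ℕ}

local notation "⟪" x ", " y "⟫" => hermForm _ _ q x y

attribute [local instance] actSub

/-- The nonzero isotropic vectors fixed by `S`. -/
def WW (q : ℕ) (S : (Fin n → F) → (Fin n → F)) : Set (Fin n → F) := {a | S a = a ∧ a ≠ 0 ∧ hermForm n F q a a = 0}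

/-- The corresponding root subgroups. -/
noncomputable def XX (hF : Fintype.card F = q ^ 2) (S : (Fin n → F) → (Fin n → F)) : Set (Subgroup (PSU n F q)) :=
  A hF '' WW q S

instance (hF : Fintype.card F = q ^ 2) (S : (Fin n → F) → (Fin n → F)) : Finite (XX hF S) :=
  (Set.toFinite (WW q S)).image _ |>.to_subtype

section Trans

variable {hF : Fintype.card F = q ^ 2} {S : (Fin n → F) → (Fin n → F)} {ν : F} (hS : SData hF S ν)
include hS

/-- Transitivity on the points not perpendicular to a given point. -/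
theorem trans_H1 {a b b' : Fin n → F} (ha : a ∈ WW q S) (hb : b ∈ WW q S) (hb' : b' ∈ WW q S) (hab : ⟪b, a⟫ ≠ 0)
    (hab' : ⟪b', a⟫ ≠ 0) : ∃ (z w : Fin n → F) (κ : F) (h : EData hF S ν z w κ), act (EE h) a = a ∧ A hF (act (EE h) b) = A hF b' := by
  have hν := nu_mul hS
  have hν0 := nu_ne hS
  set t := ⟪b, a⟫ with ht
  set t' := ⟪b', a⟫ with ht'
  have htq : t ^ q = ν * t := pow_form_fix hS hb.1 ha.1
  have htq' : t' ^ q = ν * t' := pow_form_fix hS hb'.1 ha.1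
  set k := t * t'⁻¹ with hk
  have hk0 : k ≠ 0 := mul_ne_zero hab (inv_ne_zero hab')
  have hkq : k ^ q = k := by
    rw [hk, mul_pow, inv_pow, htq, htq']
    field_simp
  set b'' := k • b' with hb''
  have hSb'' : S b'' = b'' := by
    rw [hb'', hS.smul, hkq, hb'.1]
  have hb''iso : ⟪b'', b''⟫ = 0 := iso_smul hF hb'.2.2 k
  have htb'' : ⟪b'', a⟫ = t := by
    rw [hb'', hermForm_smul_left, ← ht', hk]
    field_simp
  obtain ⟨hw, hκ, hE1, hE2⟩ := siegel_move hF ha.2.2 hb.2.2 hb''iso rfl htb'' hab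
  have hinv : (t⁻¹) ^ q = ν * t⁻¹ := by
    rw [inv_pow, htq]
    field_simp
    linear_combination -hν
  have hE : EData hF S ν a (t⁻¹ • (b'' - b)) (⟪b, t⁻¹ • (b'' - b)⟫ * t⁻¹) := by
    refine ⟨ha.2.2, hw, hκ, ha.1, ?_, ?_⟩
    · rw [hS.smul, S_sub hS, hSb'', hb.1, hinv, smul_smul]
    · have h1 : ⟪b, t⁻¹ • (b'' - b)⟫ = ν * t⁻¹ * ⟪b, b''⟫ := by
        rw [hermForm_smul_right, hinv, hermForm_sub_right hF, hb.2.2, sub_zero]
      rw [h1, mul_pow, mul_pow, mul_pow, hinv, nu_q hS, pow_form_fix hS hb.1 hSb'']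
      linear_combination (ν * ν * t⁻¹ * t⁻¹ * ⟪b, b''⟫) * hν
  refine ⟨_, _, _, hE, hE1, ?_⟩
  have h3 : act (EE hE) b = b'' := hE2
  rw [h3, hb'', A_smul hF hb'.2.2 hk0]

end Trans

section Main

variable {r f : ℕ} [Fact r.Prime] [CharP F r] {hF : Fintype.card F = q ^ 2} {S : (Fin n → F) → (Fin n → F)} {ν : F}

/-- **The block argument.** -/
theorem inv_main (hS : SData hF S ν) {g : GU n F q} {σ : F ≃+* F} {μ : F} (hμ : μ ≠ 0) (hT : ∀ x, S x = μ • Th g σ x)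
    (hn : 3 ≤ n) (h32 : ¬ (n = 3 ∧ q = 2)) (hrq : r ∣ q) (hFr : Fintype.card F = r ^ f) (hf : 1 ≤ f)
    (hσ : orderOf σ = 2) (hσq : ∀ x, σ x = x ^ q) (h2 : (2 : F) ≠ 0)
    (H2 : ∀ a ∈ WW q S, ∀ b ∈ WW q S, (∀ c : F, c • a ≠ b) → ⟪a, b⟫ = 0 →
      (∃ (z w : Fin n → F) (κ : F) (h : EData hF S ν z w κ), act (EE h) a = a ∧ ⟪b, act (EE h) b⟫ ≠ 0) ∨
      (2 ∣ Nat.card {Z | Z ∈ XX hF S ∧ Perp (A hF a) Z ∧ Perp (A hF b) Z} ∧
        ∀ c ∈ WW q S, ⟪a, c⟫ = 0 → ⟪b, c⟫ = 0 → A hF c ≠ A hF a →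
          ∃ (z w : Fin n → F) (κ : F) (h : EData hF S ν z w κ), act (EE h) a = a ∧ A hF (act (EE h) b) = A hF c))
    (H3 : ∀ a ∈ WW q S, ∀ b ∈ WW q S, ⟪a, b⟫ = 0 → ∃ c ∈ WW q S, ⟪a, c⟫ ≠ 0 ∧ ⟪b, c⟫ ≠ 0)
    (H4 : 2 ∣ Nat.card (XX hF S))
    (hend : ∀ (s' : V0 hS →+ V0 hS) (τ' : Kq hF → Kq hF), (∀ k v, s' (k • v) = τ' k • s' v) → Function.Injective s' →
      (∀ v : V0 hS, (v : Fin n → F) ≠ 0 → ⟪(v : Fin n → F), (v : Fin n → F)⟫ = 0 → ∃ α : Kq hF, s' v = α • v) →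
      (∀ k, τ' k = k) ∧ ∃ α : Kq hF, ∀ v, s' v = α • v)
    (C L : Subgroup (MulAut (PSU n F q))) (hC : ∀ b ∈ C, b * (deltaOf g * phiOf σ) = (deltaOf g * phiOf σ) * b)
    (hKC : ∀ k ∈ MonoidHom.eqLocus (deltaOf g * phiOf σ : MulAut (PSU n F q)).toMonoidHom (MonoidHom.id (PSU n F q)), MulAut.conj k ∈ C)
    (hLC : L ≤ C) (hLn : ∀ c ∈ C, ∀ y ∈ L, c * y * c⁻¹ ∈ L) (hcop : (Nat.card L).Coprime 2) : L = ⊥ := by
  classical
  have hrF : r ∣ q := hrq
  set U : Set (MulAut (PSU n F q)) := {u | ∃ (z w : Fin n → F) (κ : F) (h : EData hF S ν z w κ), u = MulAut.conj (piSU n F q (EE h))} with hU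
  have hUC : ∀ u ∈ U, u ∈ C := by
    rintro _ ⟨z, w, κ, h, rfl⟩
    exact hKC _ (beta_EE hS hμ hT h)
  have hact : ∀ {z w : Fin n → F} {κ : F} (h : EData hF S ν z w κ) {a : Fin n → F}, ⟪a, a⟫ = 0 →
      MulAut.conj (piSU n F q (EE h)) • A hF a = A hF (act (EE h) a) := fun h a ha => A_conj hF _ ha
  have hperp : ∀ {a b : Fin n → F}, a ∈ WW q S → ⟪b, b⟫ = 0 → Perp (A hF a) (A hF b) → ⟪a, b⟫ = 0 :=
    fun ha hb h => of_A_perp hF hn ha.2.2 hb ha.2.1 h
  have hnperp : ∀ {a b : Fin n → F}, a ∈ WW q S → b ∈ WW q S → ⟪a, b⟫ = 0 → Perp (A hF a) (A hF b) :=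
    fun ha hb h => A_perp_of hF ha.2.2 hb.2.2 h
  -- elements of `L` on the fixed vectors
  have hdata : ∀ y ∈ L, ∃ (g' : GU n F q) (τ : F ≃+* F) (d : F), y = deltaOf g' * phiOf τ ∧ d ≠ 0 ∧
      ∀ x, S (d • Th g' τ x) = d • Th g' τ (S x) := by
    intro y hy
    obtain ⟨g', τ, rfl⟩ := aut_eq r hrq hF hn h32 y
    obtain ⟨d, hd0, hd⟩ := exists_d hS hμ hT hn h32 r g' τ (hC _ (hLC hy))
    exact ⟨g', τ, d, rfl, hd0, hd⟩
  have hY : ∀ {g' : GU n F q} {τ : F ≃+* F} {d : F}, d ≠ 0 → (∀ x, S (d • Th g' τ x) = d • Th g' τ (S x)) → ∀ {a : Fin n → F}, a ∈ WW q S →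
      d • Th g' τ a ∈ WW q S ∧ (deltaOf g' * phiOf τ : MulAut (PSU n F q)) • A hF a = A hF (d • Th g' τ a) := by
    intro g' τ d hd0 hd a ha
    refine ⟨⟨by rw [hd, ha.1], ?_, iso_smul hF (iso_Th g' τ ha.2.2) d⟩, ?_⟩
    · intro h0
      have h1 := (smul_eq_zero.1 h0).resolve_left hd0
      apply ha.2.1
      apply Th_injective hF g' τ
      rw [h1]
      have := Th_add g' τ 0 0
      have h0' : Th g' τ 0 = 0 := by simpa using this
      exact h0'.symm
    · rw [A_psi hF g' τ ha.2.2, A_smul hF (iso_Th g' τ ha.2.2) hd0]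
  have hmain := block_prime (S := Subgroup (PSU n F q)) (G := MulAut (PSU n F q)) (p := 2) (by norm_num) (XX hF S) L ?_ Perp perp_symm U
    (fun u hu y hy => hLn u (hUC u hu) y hy) (fun P _ => coprime_orbit L hcop P) ?_ ?_ ?_ H4
  · -- the final conclusion
    rw [eq_bot_iff]
    intro y hy
    rw [Subgroup.mem_bot]
    obtain ⟨g', τ, d, rfl, hd0, hd⟩ := hdata y hy
    set s : (Fin n → F) → (Fin n → F) := fun x => d • Th g' τ x with hs
    have hsadd : ∀ x y, s (x + y) = s x + s y := by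
      intro x y
      simp only [hs, Th_add, smul_add]
    have hssmul : ∀ (c : F) x, s (c • x) = τ c • s x := by
      intro c x
      simp only [hs, Th_smul, smul_comm d]
    have hsinj : Function.Injective s := by
      intro x x' h
      exact Th_injective hF g' τ (smul_right_injective _ hd0 h)
    have hs0 : s 0 = 0 := by
      have := hsadd 0 0
      simpa using this
    have hsS : ∀ x, S x = x → S (s x) = s x := by
      intro x hx
      simp only [hs]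
      rw [hd, hx]
    have hτK : ∀ k : Kq hF, τ k ∈ Kq hF := by
      intro k
      rw [mem_Kq, ← map_pow, mem_Kq.1 k.2]
    let τ' : Kq hF → Kq hF := fun k => ⟨τ k, hτK k⟩
    let s' : V0 hS →+ V0 hS := AddMonoidHom.mk' (fun v => ⟨s v.1, hsS _ v.2⟩) (fun a b => Subtype.ext (hsadd _ _))
    have hs'coe : ∀ v : V0 hS, ((s' v : V0 hS) : Fin n → F) = s v := fun v => rfl
    obtain ⟨hτ1, α, hα⟩ := hend s' τ' (fun k v => Subtype.ext (hssmul _ _))
      (fun v v' h => Subtype.ext (hsinj (congrArg Subtype.val h))) (fun v hv0 hv => by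
        have hv' : (v : Fin n → F) ∈ WW q S := ⟨v.2, hv0, hv⟩
        have h1 := hmain _ hy (A hF v.1) ⟨_, hv', rfl⟩
        rw [(hY hd0 hd hv').2] at h1
        obtain ⟨l, -, hl⟩ := A_inj hF hn hv (iso_smul hF (iso_Th g' τ hv) d) hv0 h1.symm
        have hl' : s v.1 = l • v.1 := hl
        have hlq : l ^ q = l := by
          have h3 := hsS _ v.2
          rw [hl', hS.smul, show S v.1 = v.1 from v.2] at h3
          exact smul_left_injective F hv0 h3
        exact ⟨⟨l, hlq⟩, Subtype.ext hl⟩)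
    have hτfix : ∀ k : F, k ^ q = k → τ k = k := fun k hk => congrArg Subtype.val (hτ1 ⟨k, hk⟩)
    -- `τ` is trivial
    have hsg := sigmaHom_eq r hrq hF hn h32 g' τ
    have hτo : (orderOf τ).Coprime 2 := by
      rw [← hsg]
      have h1 : orderOf (deltaOf g' * phiOf τ : MulAut (PSU n F q)) ∣ Nat.card L := by
        rw [← Subgroup.orderOf_mk _ hy]
        exact orderOf_dvd_natCard _
      exact Nat.Coprime.coprime_dvd_left ((orderOf_map_dvd _ _).trans h1) hcop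
    have hτ0 : τ = 1 := by
      apply Cfsg.Agent.Lib.Classical.Symp.Aut.Balance.eq_one_of_fix_fix hFr hf σ τ hσ Nat.prime_two hτo
      intro c hc
      apply hτfix
      rw [← hσq, hc]
    subst hτ0
    obtain ⟨ε, hε0, hεq⟩ := exists_trace_zero hF
    have hsall : ∀ x, s x = (α : F) • x := by
      intro x
      obtain ⟨u, v, hu, hv, rfl⟩ := decomp hS hε0 hεq h2 x
      have h1 := congrArg Subtype.val (hα ⟨u, hu⟩)
      have h3 := congrArg Subtype.val (hα ⟨v, hv⟩)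
      have h1' : s u = (α : F) • u := h1
      have h3' : s v = (α : F) • v := h3
      rw [hsadd, hssmul, h1', h3', smul_add, smul_comm]
      rfl
    have hscal : (g'.1 : Matrix (Fin n) (Fin n) F) = Matrix.scalar (Fin n) (d⁻¹ * (α : F)) := by
      apply scalar_of_columns
      intro k
      have h1 := hsall (Pi.single k 1)
      simp only [hs, Th] at h1
      have h3 : sigHat (1 : F ≃+* F) (Pi.single k 1 : Fin n → F) = Pi.single k 1 := rfl
      rw [h3] at h1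
      rw [mul_smul, ← h1, smul_smul, inv_mul_cancel₀ hd0, one_smul]
    rw [deltaOf_scalar hscal, phiOf_one, one_mul]
  · -- `L` preserves `X`
    rintro y hy _ ⟨a, ha, rfl⟩
    obtain ⟨g', τ, d, rfl, hd0, hd⟩ := hdata y hy
    obtain ⟨h1, h3⟩ := hY hd0 hd ha
    exact ⟨_, h1, h3.symm⟩
  · -- transitivity
    rintro _ ⟨a, ha, rfl⟩ _ ⟨b, hb, rfl⟩ _ ⟨b', hb', rfl⟩ hab hab'
    have h1 : ⟪b, a⟫ ≠ 0 := fun h => hab (hnperp ha hb (hermForm_symm_zero hF h))
    have h3 : ⟪b', a⟫ ≠ 0 := fun h => hab' (hnperp ha hb' (hermForm_symm_zero hF h))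
    obtain ⟨z, w, κ, h, h4, h5⟩ := trans_H1 hS ha hb hb' h1 h3
    refine ⟨_, ⟨z, w, κ, h, rfl⟩, ?_, ?_⟩
    · rw [hact h ha.2.2, h4]
    · rw [hact h hb.2.2, h5]
  · -- the perpendicular case
    rintro _ ⟨a, ha, rfl⟩ _ ⟨b, hb, rfl⟩ hne hab
    have h1 := hperp ha hb.2.2 hab
    have hnp : ∀ c : F, c • a ≠ b := by
      rintro c rfl
      have hc0 : c ≠ 0 := by
        rintro rfl
        exact hb.2.1 (zero_smul _ _)
      exact hne (A_smul hF ha.2.2 hc0)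
    rcases H2 a ha b hb hnp h1 with ⟨z, w, κ, h, h3, h4⟩ | ⟨h3, h4⟩
    · left
      refine ⟨_, ⟨z, w, κ, h, rfl⟩, ?_, ?_⟩
      · rw [hact h ha.2.2, h3]
      · rw [hact h hb.2.2]
        intro h5
        exact h4 (hperp hb (iso_act _ hb.2.2) h5)
    · right
      refine ⟨h3, ?_⟩
      rintro _ ⟨c, hc, rfl⟩ h5 h6 h7
      obtain ⟨z, w, κ, h, h8, h9⟩ := h4 c hc (hperp ha hc.2.2 h5) (hperp hb hc.2.2 h6) h7
      refine ⟨_, ⟨z, w, κ, h, rfl⟩, ?_, ?_⟩
      · rw [hact h ha.2.2, h8]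
      · rw [hact h hb.2.2, h9]
  · -- a common partner
    rintro _ ⟨a, ha, rfl⟩ _ ⟨b, hb, rfl⟩ hab
    obtain ⟨c, hc, h1, h3⟩ := H3 a ha b hb (hperp ha hb.2.2 hab)
    exact ⟨_, ⟨c, hc, rfl⟩, fun h => h1 (hperp ha hc.2.2 h), fun h => h3 (hperp hb hc.2.2 h)⟩

end Main

end Cfsg.Agent.Lib.Classical.HermBal.Inv2
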