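import Mathlib
import Cfsg.Agent.Lib.Classical.HermBal.Inv2
import Cfsg.Agent.Lib.Classical.OrthAut.BalB

/-!
# The orthogonal case of the block argument
-/

set_option autoImplicit false
set_option linter.unusedSectionVars false
set_option linter.unusedSimpArgs false
set_option linter.unusedVariables false
set_option linter.style.haveILetI false

open scoped Matrix
open Cfsg MulAction Module QuadraticMap
open Cfsg.Agent.Lib.Classical.Herm.Basic Cfsg.Agent.Lib.Classical.Herm.Block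
open Cfsg.Agent.Lib.Classical.Herm.Subfield Cfsg.Agent.Lib.Classical.Herm.Tv
open Cfsg.Agent.Lib.Classical.Herm.Comm Cfsg.Agent.Lib.Classical.Herm.Unip
open Cfsg.Agent.Lib.Classical.Herm.Abar Cfsg.Agent.Lib.Classical.Herm.Psi
open Cfsg.Agent.Lib.Classical.Herm.SU Cfsg.Agent.Lib.Classical.Herm.AutMain
open Cfsg.Agent.Lib.Classical.Herm.AutStruct Cfsg.Agent.Lib.Classical.Herm.Descent
open Cfsg.Agent.Lib.Classical.Herm.Simple Cfsg.Agent.Lib.Classical.Herm.GU
open Cfsg.Agent.Lib.Classical.HermBal.BlockL Cfsg.Agent.Lib.Classical.HermBal.Inv1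
open Cfsg.Agent.Lib.Classical.HermBal.Inv2
open Cfsg.Agent.Lib.Classical.OrthAut.BalB Cfsg.Agent.Lib.Classical.Witt.Hyp Cfsg.Agent.Lib.Classical.Witt.TS

namespace Cfsg.Agent.Lib.Classical.HermBal.Inv3

variable {F : Type*} [Field F] [Fintype F] {q n : ℕ}

local notation "⟪" x ", " y "⟫" => hermForm _ _ q x y

attribute [local instance] actSub

/-- Two functions with the same fibres on a set have images of the same size. -/
theorem card_image_eq_of_iff {α β γ : Type*} (f₁ : α → β) (f₂ : α → γ) (s : Set α)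
    (h : ∀ a ∈ s, ∀ b ∈ s, f₁ a = f₁ b ↔ f₂ a = f₂ b) : Nat.card (f₁ '' s) = Nat.card (f₂ '' s) := by
  classical
  apply Nat.card_congr
  have hex : ∀ y : f₁ '' s, ∃ a ∈ s, f₁ a = y.1 := fun y => y.2
  choose r hr hrf using hex
  refine Equiv.ofBijective (fun y => ⟨f₂ (r y), r y, hr y, rfl⟩) ⟨?_, ?_⟩
  · intro y y' hyy
    apply Subtype.ext
    rw [← hrf y, ← hrf y']
    exact (h _ (hr y) _ (hr y')).2 (congrArg Subtype.val hyy)
  · rintro ⟨_, a, ha, rfl⟩
    refine ⟨⟨f₁ a, a, ha, rfl⟩, Subtype.ext ?_⟩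
    exact (h _ (hr _) _ ha).1 (hrf _)

section Form

variable {hF : Fintype.card F = q ^ 2} {S : (Fin n → F) → (Fin n → F)} (hS : SData hF S 1)

/-- The symmetric bilinear form on the fixed space. -/
noncomputable def B0 : V0 hS →ₗ[Kq hF] V0 hS →ₗ[Kq hF] Kq hF :=
  LinearMap.mk₂ (Kq hF) (fun x y => ⟨⟪x.1, y.1⟫, by
      rw [mem_Kq, pow_form_fix hS x.2 y.2, one_mul]⟩)
    (fun x x' y => Subtype.ext (hermForm_add_left n _ _ _))
    (fun k x y => Subtype.ext (hermForm_smul_left n _ _ _))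
    (fun x y y' => Subtype.ext (hermForm_add_right hF n _ _ _))
    (fun k x y => Subtype.ext (by
      change ⟪x.1, (k : F) • y.1⟫ = (k : F) * ⟪x.1, y.1⟫
      rw [hermForm_smul_right, mem_Kq.1 k.2]))

/-- The quadratic form on the fixed space. -/
noncomputable def Q0 : QuadraticForm (Kq hF) (V0 hS) := LinearMap.BilinMap.toQuadraticMap (B0 hS)

theorem Q0_coe (x : V0 hS) : ((Q0 hS x : Kq hF) : F) = ⟪x.1, x.1⟫ := rfl

theorem polar_coe (x y : V0 hS) : ((polar (Q0 hS) x y : Kq hF) : F) = 2 * ⟪x.1, y.1⟫ := by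
  have h1 : polar (Q0 hS) x y = B0 hS x y + B0 hS y x := by
    simp only [polar, Q0, LinearMap.BilinMap.toQuadraticMap_apply, map_add, LinearMap.add_apply]
    abel
  rw [h1]
  change ⟪x.1, y.1⟫ + ⟪y.1, x.1⟫ = _
  have h3 := form_fix hS y.2 x.2
  rw [h3]
  ring

variable (h2 : (2 : F) ≠ 0)
include h2 hS

theorem Q0_eq_zero {x : V0 hS} : Q0 hS x = 0 ↔ ⟪x.1, x.1⟫ = 0 := by
  constructor
  · intro h
    rw [← Q0_coe hS, h]
    rfl
  · intro h
    exact Subtype.ext h

theorem polar_eq_zero {x y : V0 hS} : polar (Q0 hS) x y = 0 ↔ ⟪x.1, y.1⟫ = 0 := by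
  constructor
  · intro h
    have h1 := polar_coe hS x y
    rw [h] at h1
    exact (mul_eq_zero.1 h1.symm).resolve_left h2
  · intro h
    apply Subtype.ext
    rw [polar_coe, h, mul_zero]
    rfl

theorem two_K : (2 : Kq hF) ≠ 0 := by
  intro h
  apply h2
  exact congrArg Subtype.val h

theorem polarNondeg : PolarNondeg (Q0 hS) := by
  intro x hx
  obtain ⟨ε, hε0, hεq⟩ := exists_trace_zero hF
  apply Subtype.ext
  apply nondeg_fix hS hε0 hεq h2
  intro y hy
  exact (polar_eq_zero hS h2).1 (hx ⟨y, hy⟩)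

theorem finrank_eq : finrank (Kq hF) (V0 hS) = n := by
  obtain ⟨ε, hε0, hεq⟩ := exists_trace_zero hF
  exact finrank_V0 hS hε0 hεq h2

/-- Eichler elements in the orthogonal case. -/
theorem eichlerO {z w : Fin n → F} (hSz : S z = z) (hSw : S w = w) (hzz : ⟪z, z⟫ = 0) (hwz : ⟪w, z⟫ = 0) :
    EData hF S 1 z w (-(2⁻¹ * ⟪w, w⟫)) := by
  have h2q : (2 : F) ^ q = 2 := by
    rw [← one_add_one_eq_two, pow_q_add hF, one_pow]
  have hκq : (-(2⁻¹ * ⟪w, w⟫)) ^ q = -(2⁻¹ * ⟪w, w⟫) := by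
    rw [pow_q_neg hF, mul_pow, inv_pow, h2q, pow_form_fix hS hSw hSw, one_mul]
  refine ⟨hzz, hwz, ?_, hSz, by rw [one_smul, hSw], by rw [hκq, one_mul]⟩
  rw [hκq]
  field_simp
  ring

/-- A vector of `F ^ n` proportional to a fixed one over `F` is proportional over the fixed field. -/
theorem smul_K {a b : Fin n → F} (ha : S a = a) (hb : S b = b) (ha0 : a ≠ 0) {l : F} (h : b = l • a) : l ^ q = l := by
  have h1 := hb
  rw [h, hS.smul, ha] at h1
  exact smul_left_injective F ha0 h1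

/-- The parity of the number of points. -/
theorem even_XX (hn : 3 ≤ n) : 2 ∣ Nat.card (XX hF S) := by
  classical
  haveI : Module.Finite (Kq hF) (V0 hS) := Module.Finite.of_finite
  have h1 := even_lines (Q0 hS) (two_K hS h2) (polarNondeg hS h2)
  have h3 : SingLines (Q0 hS) = (line (Kq hF)) '' {a : V0 hS | a ≠ 0 ∧ Q0 hS a = 0} := by
    ext T
    constructor
    · rintro ⟨a, ha0, ha, rfl⟩
      exact ⟨a, ⟨ha0, ha⟩, rfl⟩
    · rintro ⟨a, ⟨ha0, ha⟩, rfl⟩
      exact ⟨a, ha0, ha, rfl⟩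
  have h4 : XX hF S = (fun a : V0 hS => A hF a.1) '' {a : V0 hS | a ≠ 0 ∧ Q0 hS a = 0} := by
    ext T
    constructor
    · rintro ⟨a, ⟨h5, h6, h7⟩, rfl⟩
      exact ⟨⟨a, h5⟩, ⟨fun h => h6 (congrArg Subtype.val h), (Q0_eq_zero hS h2).2 h7⟩, rfl⟩
    · rintro ⟨a, ⟨h5, h6⟩, rfl⟩
      exact ⟨a.1, ⟨a.2, fun h => h5 (Subtype.ext h), (Q0_eq_zero hS h2).1 h6⟩, rfl⟩
  rw [h4, card_image_eq_of_iff _ (line (Kq hF)), ← h3]
  · exact even_iff_two_dvd.1 h1
  · rintro a ⟨ha0, ha⟩ b ⟨hb0, hb⟩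
    have ha' := (Q0_eq_zero hS h2).1 ha
    have hb' := (Q0_eq_zero hS h2).1 hb
    have ha0' : (a : Fin n → F) ≠ 0 := fun h => ha0 (Subtype.ext h)
    have hb0' : (b : Fin n → F) ≠ 0 := fun h => hb0 (Subtype.ext h)
    constructor
    · intro h
      obtain ⟨l, hl0, hl⟩ := A_inj hF hn ha' hb' ha0' h
      have hlq := smul_K hS h2 a.2 b.2 ha0' hl
      have hk : b = (⟨l, hlq⟩ : Kq hF) • a := Subtype.ext hl
      have hk0 : (⟨l, hlq⟩ : Kq hF) ≠ 0 := fun h => hl0 (congrArg Subtype.val h)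
      rw [hk, line_smul hk0]
    · intro h
      have hm : b ∈ line (Kq hF) a := by
        rw [h]
        exact self_mem_line b
      obtain ⟨k, rfl⟩ := hm
      have hk0 : (k : F) ≠ 0 := by
        intro h0
        apply hb0
        apply Subtype.ext
        change (k : F) • a.1 = 0
        rw [h0, zero_smul]
      exact (A_smul hF ha' hk0).symm

/-- The common partner. -/
theorem common_partner {a b : Fin n → F} (ha : a ∈ WW q S) (hb : b ∈ WW q S) (hab : ⟪a, b⟫ = 0) :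
    ∃ c ∈ WW q S, ⟪a, c⟫ ≠ 0 ∧ ⟪b, c⟫ ≠ 0 := by
  obtain ⟨z, hz1, hz2, hz3, hz4⟩ := exists_common_partner (polarNondeg hS h2) (a := (⟨a, ha.1⟩ : V0 hS)) (r := (⟨b, hb.1⟩ : V0 hS))
    (fun h => ha.2.1 (congrArg Subtype.val h)) (fun h => hb.2.1 (congrArg Subtype.val h))
    ((Q0_eq_zero hS h2).2 ha.2.2) ((polar_eq_zero hS h2).2 hab)
  refine ⟨z.1, ⟨z.2, fun h => hz2 (Subtype.ext h), (Q0_eq_zero hS h2).1 hz1⟩, ?_, ?_⟩
  · intro h
    exact hz3 ((polar_eq_zero hS h2).2 h)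
  · intro h
    exact hz4 ((polar_eq_zero hS h2).2 h)

/-- Not being proportional, for fixed vectors. -/
theorem not_mem_span {a b : V0 hS} (h : ∀ c : F, c • a.1 ≠ b.1) : b ∉ Submodule.span (Kq hF) {a} := by
  intro hm
  obtain ⟨k, hk⟩ := Submodule.mem_span_singleton.1 hm
  exact h k (congrArg Subtype.val hk)

/-- The perpendicular case in dimension at least five. -/
theorem perp_large (h5 : 5 ≤ n) {a b : Fin n → F} (ha : a ∈ WW q S) (hb : b ∈ WW q S) (hnp : ∀ c : F, c • a ≠ b) (hab : ⟪a, b⟫ = 0) :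
    ∃ (z w : Fin n → F) (κ : F) (h : EData hF S 1 z w κ), act (EE h) a = a ∧ ⟪b, act (EE h) b⟫ ≠ 0 := by
  classical
  haveI : Module.Finite (Kq hF) (V0 hS) := Module.Finite.of_finite
  have hQ := polarNondeg hS h2
  set ah : V0 hS := ⟨a, ha.1⟩ with hah
  set bh : V0 hS := ⟨b, hb.1⟩ with hbh
  have hind := not_mem_span hS h2 (a := ah) (b := bh) hnp
  have hah0 : ah ≠ 0 := fun h => ha.2.1 (congrArg Subtype.val h)
  obtain ⟨a', h11, h12, h13⟩ := exists_perp_singular_partner hQ hah0 ((Q0_eq_zero hS h2).2 hb.2.2) ((polar_eq_zero hS h2).2 hab) hind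
  obtain ⟨c', h21, h22, h23⟩ := exists_nonsingular_perp hQ (by rw [finrank_eq hS h2]; exact h5) ah a'
  have e1 : ⟪a'.1, a'.1⟫ = 0 := (Q0_eq_zero hS h2).1 h11
  have e2 : ⟪a, a'.1⟫ = 0 := (polar_eq_zero hS h2).1 h12
  have e3 : 2 * ⟪b, a'.1⟫ = 1 := by
    have := polar_coe hS bh a'
    rw [h13] at this
    exact this.symm
  have e4 : ⟪a, c'.1⟫ = 0 := (polar_eq_zero hS h2).1 h21
  have e5 : ⟪a'.1, c'.1⟫ = 0 := (polar_eq_zero hS h2).1 h22
  have e6 : ⟪c'.1, c'.1⟫ ≠ 0 := fun h => h23 ((Q0_eq_zero hS h2).2 h)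
  have hE := eichlerO hS h2 a'.2 c'.2 e1 (hermForm_symm_zero hF e5)
  refine ⟨_, _, _, hE, ?_, ?_⟩
  · rw [act_EE, e2, e4]
    simp
  · rw [act_EE]
    set t := ⟪b, a'.1⟫ with ht
    set y := ⟪b, c'.1⟫ with hy
    set κ := -(2⁻¹ * ⟪c'.1, c'.1⟫) with hκ
    have hκ0 : κ ≠ 0 := neg_ne_zero.2 (mul_ne_zero (inv_ne_zero h2) e6)
    have ht0 : t ≠ 0 := by
      intro h
      rw [h, mul_zero] at e3
      exact zero_ne_one e3
    have htq : t ^ q = t := by
      rw [ht, pow_form_fix hS hb.1 a'.2, one_mul]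
    have hyq : y ^ q = y := by
      rw [hy, pow_form_fix hS hb.1 c'.2, one_mul]
    have hκq : κ ^ q = κ := by
      have := hE.Sκ
      rwa [one_mul] at this
    simp only [hermForm_add_right hF, hermForm_sub_right hF, hermForm_smul_right, hb.2.2, ← ht, ← hy, mul_pow, htq, hyq, hκq]
    intro h
    apply mul_ne_zero (mul_ne_zero hκ0 ht0) ht0
    linear_combination h

/-- Dimension three: there are no perpendicular isotropic points. -/
theorem perp_three (h3 : n = 3) {a b : Fin n → F} (ha : a ∈ WW q S) (hb : b ∈ WW q S) (hnp : ∀ c : F, c • a ≠ b) (hab : ⟪a, b⟫ = 0) :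
    False := by
  classical
  haveI : Module.Finite (Kq hF) (V0 hS) := Module.Finite.of_finite
  have h4 := four_le_of_ts (polarNondeg hS h2) (a := (⟨a, ha.1⟩ : V0 hS)) (b := (⟨b, hb.1⟩ : V0 hS))
    (fun h => ha.2.1 (congrArg Subtype.val h)) ((Q0_eq_zero hS h2).2 ha.2.2) ((Q0_eq_zero hS h2).2 hb.2.2)
    ((polar_eq_zero hS h2).2 hab) (not_mem_span hS h2 hnp)
  rw [finrank_eq hS h2] at h4
  omega

/-- Dimension four: the points perpendicular to two perpendicular points lie on the line joining them. -/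
theorem span_four (h4 : n = 4) {a b c : Fin n → F} (ha : a ∈ WW q S) (hb : b ∈ WW q S) (hc : c ∈ WW q S) (hnp : ∀ c : F, c • a ≠ b)
    (hab : ⟪a, b⟫ = 0) (hac : ⟪a, c⟫ = 0) (hbc : ⟪b, c⟫ = 0) : ∃ x y : Kq hF, c = (x : F) • a + (y : F) • b := by
  classical
  haveI : Module.Finite (Kq hF) (V0 hS) := Module.Finite.of_finite
  set ah : V0 hS := ⟨a, ha.1⟩ with hah
  set bh : V0 hS := ⟨b, hb.1⟩ with hbh
  set ch : V0 hS := ⟨c, hc.1⟩ with hch
  by_contra hcon
  have hnot : ch ∉ Submodule.span (Kq hF) {ah, bh} := by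
    intro hm
    obtain ⟨x, y, hxy⟩ := Submodule.mem_span_pair.1 hm
    exact hcon ⟨x, y, (congrArg Subtype.val hxy).symm⟩
  set U := Submodule.span (Kq hF) {ah, bh} with hU
  set W := U ⊔ Submodule.span (Kq hF) {ch} with hW
  have hba : ⟪b, a⟫ = 0 := hermForm_symm_zero hF hab
  have hca : ⟪c, a⟫ = 0 := hermForm_symm_zero hF hac
  have hcb : ⟪c, b⟫ = 0 := hermForm_symm_zero hF hbc
  have hTS : IsTS (Q0 hS) W := by
    intro w hw
    obtain ⟨u, hu, v, hv, rfl⟩ := Submodule.mem_sup.1 hw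
    obtain ⟨s, t, rfl⟩ := Submodule.mem_span_pair.1 hu
    obtain ⟨r, rfl⟩ := Submodule.mem_span_singleton.1 hv
    rw [Q0_eq_zero hS h2]
    change ⟪(s : F) • a + (t : F) • b + (r : F) • c, (s : F) • a + (t : F) • b + (r : F) • c⟫ = 0
    simp only [hermForm_add_left, hermForm_add_right hF, hermForm_smul_left, hermForm_smul_right, ha.2.2, hb.2.2, hc.2.2,
      hab, hac, hbc, hba, hca, hcb]
    ring
  have h1 := IsTS.two_mul_finrank_le (polarNondeg hS h2) hTS
  rw [finrank_eq hS h2] at h1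
  have hah0 : ah ≠ 0 := fun h => ha.2.1 (congrArg Subtype.val h)
  have hb1 : bh ∉ Submodule.span (Kq hF) {ah} := not_mem_span hS h2 hnp
  have hlt1 : Submodule.span (Kq hF) {ah} < U := by
    rw [SetLike.lt_iff_le_and_exists]
    refine ⟨Submodule.span_mono (by simp), bh, Submodule.subset_span (by simp), hb1⟩
  have hlt2 : U < W := by
    rw [SetLike.lt_iff_le_and_exists]
    exact ⟨le_sup_left, ch, Submodule.mem_sup_right (Submodule.mem_span_singleton_self _), hnot⟩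
  have h3 := Submodule.finrank_lt_finrank_of_lt hlt1
  have h5 := Submodule.finrank_lt_finrank_of_lt hlt2
  rw [finrank_span_singleton hah0] at h3
  omega

/-- The line through two perpendicular points in dimension four. -/
theorem perp_four (h4 : n = 4) (hq : Odd q) {a b : Fin n → F} (ha : a ∈ WW q S) (hb : b ∈ WW q S) (hnp : ∀ c : F, c • a ≠ b) (hab : ⟪a, b⟫ = 0) :
    2 ∣ Nat.card {Z | Z ∈ XX hF S ∧ Perp (A hF a) Z ∧ Perp (A hF b) Z} ∧
      ∀ c ∈ WW q S, ⟪a, c⟫ = 0 → ⟪b, c⟫ = 0 → A hF c ≠ A hF a →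
        ∃ (z w : Fin n → F) (κ : F) (h : EData hF S 1 z w κ), act (EE h) a = a ∧ A hF (act (EE h) b) = A hF c := by
  classical
  have hn : 3 ≤ n := by omega
  haveI : Module.Finite (Kq hF) (V0 hS) := Module.Finite.of_finite
  have hba : ⟪b, a⟫ = 0 := hermForm_symm_zero hF hab
  have hbt : ∀ t : Kq hF, b + (t : F) • a ∈ WW q S := by
    intro t
    refine ⟨?_, ?_, ?_⟩
    · rw [hS.add, hS.smul, hb.1, ha.1, mem_Kq.1 t.2]
    · intro h0
      apply hnp (-(t : F))
      rw [neg_smul]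
      exact (neg_eq_of_add_eq_zero_right h0).symm ▸ (by simp)
    · simp only [hermForm_add_left, hermForm_add_right hF, hermForm_smul_left, hermForm_smul_right, ha.2.2, hb.2.2, hab, hba]
      ring
  let f : Kq hF → Subgroup (PSU n F q) := fun t => A hF (b + (t : F) • a)
  have hf : ∀ c ∈ WW q S, ⟪a, c⟫ = 0 → ⟪b, c⟫ = 0 → A hF c ≠ A hF a → ∃ t : Kq hF, A hF c = f t := by
    intro c hc e1 e2 hne
    obtain ⟨x, y, hxy⟩ := span_four hS h2 h4 ha hb hc hnp hab e1 e2
    have hy : y ≠ 0 := by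
      rintro rfl
      apply hne
      have hx0 : (x : F) ≠ 0 := by
        intro h0
        apply hc.2.1
        rw [hxy, h0]
        simp
      have : c = (x : F) • a := by
        rw [hxy]
        simp
      rw [this, A_smul hF ha.2.2 hx0]
    have hy' : (y : F) ≠ 0 := fun h => hy (Subtype.ext h)
    refine ⟨x * y⁻¹, ?_⟩
    have h1 : c = (y : F) • (b + ((x * y⁻¹ : Kq hF) : F) • a) := by
      rw [hxy]
      funext i
      simp only [Pi.add_apply, Pi.smul_apply, smul_eq_mul, Subfield.coe_mul, Subfield.coe_inv]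
      field_simp
      ring
    conv_lhs => rw [h1]
    exact A_smul hF (hbt _).2.2 hy'
  constructor
  · have hset : {Z | Z ∈ XX hF S ∧ Perp (A hF a) Z ∧ Perp (A hF b) Z} = insert (A hF a) (Set.range f) := by
      ext Z
      constructor
      · rintro ⟨⟨c, hc, rfl⟩, h1, h3⟩
        by_cases hne : A hF c = A hF a
        · exact Or.inl hne
        · obtain ⟨t, ht⟩ := hf c hc (of_A_perp hF hn ha.2.2 hc.2.2 ha.2.1 h1) (of_A_perp hF hn hb.2.2 hc.2.2 hb.2.1 h3) hne
          exact Or.inr ⟨t, ht.symm⟩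
      · rintro (rfl | ⟨t, rfl⟩)
        · exact ⟨⟨a, ha, rfl⟩, A_perp_of hF ha.2.2 ha.2.2 ha.2.2, A_perp_of hF hb.2.2 ha.2.2 hba⟩
        · refine ⟨⟨_, hbt t, rfl⟩, A_perp_of hF ha.2.2 (hbt t).2.2 ?_, A_perp_of hF hb.2.2 (hbt t).2.2 ?_⟩
          · simp only [hermForm_add_right hF, hermForm_smul_right, ha.2.2, hab]
            ring
          · simp only [hermForm_add_right hF, hermForm_smul_right, hb.2.2, hba]
            ring
    have hnotin : A hF a ∉ Set.range f := by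
      rintro ⟨t, ht⟩
      obtain ⟨l, -, hl⟩ := A_inj hF hn ha.2.2 (hbt t).2.2 ha.2.1 ht.symm
      apply hnp (l - (t : F))
      rw [sub_smul, ← hl]
      simp
    have hfinj : Function.Injective f := by
      intro t t' h
      obtain ⟨l, hl0, hl⟩ := A_inj hF hn (hbt t).2.2 (hbt t').2.2 (hbt t).2.1 h
      have hl1 : l = 1 := by
        by_contra hl1
        have h1 : (1 - l) • b = (l * (t : F) - (t' : F)) • a := by
          funext i
          have h3 := congrFun hl i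
          simp only [Pi.add_apply, Pi.smul_apply, smul_eq_mul] at h3 ⊢
          linear_combination h3
        have hl2 : 1 - l ≠ 0 := sub_ne_zero.2 (Ne.symm hl1)
        apply hnp ((1 - l)⁻¹ * (l * (t : F) - (t' : F)))
        rw [mul_smul, ← h1, smul_smul, inv_mul_cancel₀ hl2, one_smul]
      rw [hl1, one_smul] at hl
      have h1 : ((t : F) - (t' : F)) • a = 0 := by
        funext i
        have h3 := congrFun hl i
        simp only [Pi.add_apply, Pi.smul_apply, smul_eq_mul, Pi.zero_apply] at h3 ⊢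
        linear_combination -h3
      have h3 := (smul_eq_zero.1 h1).resolve_right ha.2.1
      exact Subtype.ext (sub_eq_zero.1 h3)
    rw [hset, Nat.card_coe_set_eq, Set.ncard_insert_of_notMem hnotin (Set.toFinite _), ← Nat.card_coe_set_eq,
      Nat.card_range_of_injective hfinj, card_Kq]
    exact even_iff_two_dvd.1 hq.add_one
  · intro c hc e1 e2 hne
    obtain ⟨t, ht⟩ := hf c hc e1 e2 hne
    have hind := not_mem_span hS h2 (a := (⟨a, ha.1⟩ : V0 hS)) (b := (⟨b, hb.1⟩ : V0 hS)) hnp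
    obtain ⟨w, hw1, hw2⟩ := exists_sep (polarNondeg hS h2) (a := (⟨a, ha.1⟩ : V0 hS)) (fun h => ha.2.1 (congrArg Subtype.val h)) hind
    have e3 : ⟪a, w.1⟫ = 0 := (polar_eq_zero hS h2).1 hw1
    have e4 : 2 * ⟪b, w.1⟫ = 1 := by
      have := polar_coe hS (⟨b, hb.1⟩ : V0 hS) w
      rw [hw2] at this
      exact this.symm
    have h2q : (2 : F) ^ q = 2 := by
      rw [← one_add_one_eq_two, pow_q_add hF, one_pow]
    set w' := (-(2 * (t : F))) • w.1 with hw'
    have hSw' : S w' = w' := by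
      rw [hw', hS.smul, show S w.1 = w.1 from w.2, pow_q_neg hF, mul_pow, h2q, mem_Kq.1 t.2]
    have e5 : ⟪w', a⟫ = 0 := by
      rw [hw', hermForm_smul_left, hermForm_symm_zero hF e3, mul_zero]
    have e6 : ⟪b, w'⟫ = -(t : F) := by
      rw [hw', hermForm_smul_right, pow_q_neg hF, mul_pow, h2q, mem_Kq.1 t.2]
      linear_combination (-(t : F)) * e4
    have hE := eichlerO hS h2 ha.1 hSw' ha.2.2 e5
    refine ⟨_, _, _, hE, ?_, ?_⟩
    · rw [act_EE, ha.2.2, hermForm_symm_zero hF e5]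
      simp
    · rw [act_EE, hba, ht, e6]
      change A hF _ = A hF _
      congr 1
      funext i
      simp

end Form

/-- **The orthogonal case.** -/
theorem O_case {r f : ℕ} [Fact r.Prime] [CharP F r] {hF : Fintype.card F = q ^ 2} {S : (Fin n → F) → (Fin n → F)} (hS : SData hF S 1)
    {g : GU n F q} {σ : F ≃+* F} {μ : F} (hμ : μ ≠ 0) (hT : ∀ x, S x = μ • Th g σ x)
    (hn : 3 ≤ n) (h32 : ¬ (n = 3 ∧ q = 2)) (hrq : r ∣ q) (hFr : Fintype.card F = r ^ f) (hf : 1 ≤ f)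
    (hσ : orderOf σ = 2) (hσq : ∀ x, σ x = x ^ q) (h2 : (2 : F) ≠ 0) (hq : Odd q)
    (C L : Subgroup (MulAut (PSU n F q))) (hC : ∀ b ∈ C, b * (deltaOf g * phiOf σ) = (deltaOf g * phiOf σ) * b)
    (hKC : ∀ k ∈ MonoidHom.eqLocus (deltaOf g * phiOf σ : MulAut (PSU n F q)).toMonoidHom (MonoidHom.id (PSU n F q)), MulAut.conj k ∈ C)
    (hLC : L ≤ C) (hLn : ∀ c ∈ C, ∀ y ∈ L, c * y * c⁻¹ ∈ L) (hcop : (Nat.card L).Coprime 2) : L = ⊥ := by
  classical
  haveI : Module.Finite (Kq hF) (V0 hS) := Module.Finite.of_finite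
  refine inv_main hS hμ hT hn h32 hrq hFr hf hσ hσq h2 ?_ ?_ ?_ ?_ C L hC hKC hLC hLn hcop
  · intro a ha b hb hnp hab
    by_cases h5 : 5 ≤ n
    · exact Or.inl (perp_large hS h2 h5 ha hb hnp hab)
    by_cases h4 : n = 4
    · exact Or.inr (perp_four hS h2 h4 hq ha hb hnp hab)
    · exact (perp_three hS h2 (by omega) ha hb hnp hab).elim
  · intro a ha b hb hab
    exact common_partner hS h2 ha hb hab
  · exact even_XX hS h2 hn
  · intro s' τ' hτ' hinj heig
    have h3 : 3 ≤ finrank (Kq hF) (V0 hS) := by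
      rw [finrank_eq hS h2]
      exact hn
    obtain ⟨h4, α, -, h5⟩ := scalar_of_lines (two_K hS h2) (polarNondeg hS h2) h3 s' τ' hτ' hinj (fun v hv => by
      by_cases hv0 : (v : Fin n → F) = 0
      · have : v = 0 := Subtype.ext hv0
        exact ⟨0, by rw [this, map_zero, zero_smul]⟩
      · exact heig v hv0 ((Q0_eq_zero hS h2).1 hv))
    exact ⟨h4, α, h5⟩

end Cfsg.Agent.Lib.Classical.HermBal.Inv3
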