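import Mathlib
import Cfsg.Agent.Lib.Classical.HermBal.Inv3

/-!
# The symplectic case of the block argument
-/

set_option autoImplicit false
set_option linter.unusedSectionVars false
set_option linter.unusedSimpArgs false
set_option linter.unusedVariables false
set_option linter.style.haveILetI false

open scoped Matrix LinearAlgebra.Projectivization
open Cfsg MulAction Module
open Cfsg.Agent.Lib.Classical.Herm.Basic Cfsg.Agent.Lib.Classical.Herm.Block
open Cfsg.Agent.Lib.Classical.Herm.Subfield Cfsg.Agent.Lib.Classical.Herm.Tv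
open Cfsg.Agent.Lib.Classical.Herm.Comm Cfsg.Agent.Lib.Classical.Herm.Unip
open Cfsg.Agent.Lib.Classical.Herm.Abar Cfsg.Agent.Lib.Classical.Herm.Psi
open Cfsg.Agent.Lib.Classical.Herm.SU Cfsg.Agent.Lib.Classical.Herm.AutMain
open Cfsg.Agent.Lib.Classical.Herm.AutStruct Cfsg.Agent.Lib.Classical.Herm.Descent
open Cfsg.Agent.Lib.Classical.Herm.Simple Cfsg.Agent.Lib.Classical.Herm.GU
open Cfsg.Agent.Lib.Classical.HermBal.BlockL Cfsg.Agent.Lib.Classical.HermBal.Inv1
open Cfsg.Agent.Lib.Classical.HermBal.Inv2 Cfsg.Agent.Lib.Classical.HermBal.Inv3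

namespace Cfsg.Agent.Lib.Classical.HermBal.Inv4

variable {F : Type*} [Field F] [Fintype F] {q n : ℕ}

local notation "⟪" x ", " y "⟫" => hermForm _ _ q x y

attribute [local instance] actSub

/-- A semilinear map with all nonzero vectors as eigenvectors is a scalar. -/
theorem scalar_of_all_eig {K V : Type*} [Field K] [AddCommGroup V] [Module K V] [FiniteDimensional K V] (h2 : 2 ≤ finrank K V)
    (s : V →+ V) (τ : K → K) (hτ : ∀ k v, s (k • v) = τ k • s v) (hinj : Function.Injective s)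
    (heig : ∀ v, v ≠ 0 → ∃ α : K, s v = α • v) : (∀ k, τ k = k) ∧ ∃ α : K, ∀ v, s v = α • v := by
  have hnot : ∀ a : V, ∃ b, b ∉ Submodule.span K {a} := by
    intro a
    by_contra hcon
    push Not at hcon
    have h1 : Submodule.span K {a} = ⊤ := eq_top_iff.2 (fun x _ => hcon x)
    have h3 : finrank K (Submodule.span K {a}) ≤ 1 := by
      have := finrank_span_le_card (R := K) ({a} : Set V)
      simpa using this
    rw [h1, finrank_top] at h3
    omega
  have hkey : ∀ {x y : V} {α β : K}, y ∉ Submodule.span K {x} → x ≠ 0 → s x = α • x → s y = β • y → β = α := by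
    intro x y α β hy hx hα hβ
    have hxy : x + y ≠ 0 := by
      intro h
      apply hy
      rw [Submodule.mem_span_singleton]
      exact ⟨-1, by rw [neg_one_smul]; exact neg_eq_of_add_eq_zero_right h⟩
    obtain ⟨γ, hγ⟩ := heig _ hxy
    rw [map_add, hα, hβ, smul_add] at hγ
    have h1 : (β - γ) • y = (γ - α) • x := by
      rw [sub_smul, sub_smul]
      have h3 : β • y - γ • y = γ • x - α • x := by
        rw [sub_eq_sub_iff_add_eq_add, ← hγ]
        abel
      exact h3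
    have hβγ : β = γ := by
      by_contra hne
      apply hy
      rw [Submodule.mem_span_singleton]
      refine ⟨(β - γ)⁻¹ * (γ - α), ?_⟩
      rw [mul_smul, ← h1, smul_smul, inv_mul_cancel₀ (sub_ne_zero.2 hne), one_smul]
    rw [hβγ, sub_self, zero_smul] at h1
    have h3 := (smul_eq_zero.1 h1.symm).resolve_right hx
    rw [hβγ]
    exact sub_eq_zero.1 h3
  have hne : ∃ a : V, a ≠ 0 := by
    obtain ⟨b, hb⟩ := hnot 0
    exact ⟨b, fun h => hb (by rw [h]; exact Submodule.zero_mem _)⟩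
  obtain ⟨a, ha⟩ := hne
  obtain ⟨α, hα⟩ := heig a ha
  have hother : ∀ v, v ∉ Submodule.span K {a} → s v = α • v := by
    intro v hv
    have hv0 : v ≠ 0 := fun h => hv (h ▸ Submodule.zero_mem _)
    obtain ⟨β, hβ⟩ := heig v hv0
    rw [hβ, hkey hv ha hα hβ]
  have hall : ∀ v, s v = α • v := by
    intro v
    by_cases hv : v ∈ Submodule.span K {a}
    · by_cases hv0 : v = 0
      · rw [hv0, map_zero, smul_zero]
      obtain ⟨b, hb⟩ := hnot a
      have hb0 : b ≠ 0 := fun h => hb (h ▸ Submodule.zero_mem _)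
      have hsb := hother b hb
      have hvb : v ∉ Submodule.span K {b} := by
        intro hvb
        apply hb
        obtain ⟨k, rfl⟩ := Submodule.mem_span_singleton.1 hvb
        have hk : k ≠ 0 := by
          rintro rfl
          exact hv0 (zero_smul _ _)
        rw [Submodule.mem_span_singleton] at hv ⊢
        obtain ⟨l, hl⟩ := hv
        refine ⟨k⁻¹ * l, ?_⟩
        rw [mul_smul, hl, smul_smul, inv_mul_cancel₀ hk, one_smul]
      obtain ⟨β, hβ⟩ := heig v hv0
      rw [hβ, hkey hvb hb0 hsb hβ]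
    · exact hother v hv
  refine ⟨fun k => ?_, α, hall⟩
  have hα0 : α ≠ 0 := by
    rintro rfl
    apply ha
    apply hinj
    rw [hα, zero_smul, map_zero]
  have h1 := hτ k a
  rw [hall, hall, smul_smul, smul_smul] at h1
  have h3 := smul_left_injective K ha h1
  rw [mul_comm] at h3
  exact (mul_right_cancel₀ hα0 h3).symm

theorem even_sum_pow {m : ℕ} (hm : Odd m) (d : ℕ) : Even (∑ i ∈ Finset.range d, m ^ i) ↔ Even d := by
  induction d with
  | zero => simp
  | succ d ih =>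
    rw [Finset.sum_range_succ, Nat.even_add, ih, Nat.even_add_one]
    have h1 : ¬ Even (m ^ d) := Nat.not_even_iff_odd.2 (hm.pow)
    tauto

section Form

variable {hF : Fintype.card F = q ^ 2} {S : (Fin n → F) → (Fin n → F)} (hS : SData hF S (-1)) (h2 : (2 : F) ≠ 0)
include h2 hS

theorem iso_fix {x : Fin n → F} (hx : S x = x) : ⟪x, x⟫ = 0 := by
  have h1 := form_fix hS hx hx
  have h3 : 2 * ⟪x, x⟫ = 0 := by linear_combination h1
  exact (mul_eq_zero.1 h3).resolve_left h2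

theorem exists_ne {a : Fin n → F} (ha : a ≠ 0) : ∃ y, S y = y ∧ ⟪a, y⟫ ≠ 0 := by
  by_contra hcon
  push Not at hcon
  obtain ⟨ε, hε0, hεq⟩ := exists_trace_zero hF
  exact ha (nondeg_fix hS hε0 hεq h2 hcon)

/-- Separation of non-proportional vectors. -/
theorem sep {a b : Fin n → F} (ha : S a = a) (hb : S b = b) (ha0 : a ≠ 0) (hnp : ∀ c : F, c • a ≠ b) :
    ∃ z, S z = z ∧ ⟪a, z⟫ = 0 ∧ ⟪b, z⟫ ≠ 0 := by
  by_contra hcon
  push Not at hcon
  obtain ⟨w₀, hw₀, hu⟩ := exists_ne hS h2 ha0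
  set u := ⟪a, w₀⟫ with hu'
  set v := ⟪b, w₀⟫ with hv'
  have huq : u ^ q = -u := by
    rw [hu', pow_form_fix hS ha hw₀]
    ring
  obtain ⟨ε, hε0, hεq⟩ := exists_trace_zero hF
  apply hnp (v * u⁻¹)
  symm
  rw [← sub_eq_zero]
  apply nondeg_fix hS hε0 hεq h2
  intro y hy
  set c := ⟪a, y⟫ * u⁻¹ with hc
  have hcq : c ^ q = c := by
    rw [hc, mul_pow, inv_pow, huq, pow_form_fix hS ha hy]
    field_simp
  have hz := hcon (y - c • w₀) (by rw [S_sub hS, hS.smul, hy, hw₀, hcq]) (by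
    rw [hermForm_sub_right hF, hermForm_smul_right, hcq, ← hu', hc]
    field_simp
    ring)
  rw [hermForm_sub_right hF, hermForm_smul_right, hcq, ← hv', hc] at hz
  rw [hermForm_sub_left, hermForm_smul_left]
  linear_combination hz

/-- The perpendicular case. -/
theorem perp_sp {a b : Fin n → F} (ha : a ∈ WW q S) (hb : b ∈ WW q S) (hnp : ∀ c : F, c • a ≠ b) :
    ∃ (z w : Fin n → F) (κ : F) (h : EData hF S (-1) z w κ), act (EE h) a = a ∧ ⟪b, act (EE h) b⟫ ≠ 0 := by
  obtain ⟨z, hz, h1, h3⟩ := sep hS h2 ha.1 hb.1 ha.2.1 hnp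
  obtain ⟨ε, hε0, hεq⟩ := exists_trace_zero hF
  have hE : EData hF S (-1) z 0 ε := by
    refine ⟨iso_fix hS h2 hz, hermForm_zero_left _ _, ?_, hz, ?_, ?_⟩
    · rw [hεq, hermForm_zero_left]
      ring
    · rw [S_zero hS, smul_zero]
    · rw [hεq]
      ring
  refine ⟨_, _, _, hE, ?_, ?_⟩
  · rw [act_EE, h1, hermForm_zero_right hF]
    simp
  · rw [act_EE, hermForm_zero_right hF]
    simp only [smul_zero, zero_smul, sub_self, zero_add, hermForm_add_right hF, hermForm_smul_right, hb.2.2, zero_add]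
    exact mul_ne_zero (pow_ne_zero _ (mul_ne_zero hε0 h3)) h3

/-- The common partner. -/
theorem common_partner_sp {a b : Fin n → F} (ha : a ∈ WW q S) (hb : b ∈ WW q S) : ∃ c ∈ WW q S, ⟪a, c⟫ ≠ 0 ∧ ⟪b, c⟫ ≠ 0 := by
  obtain ⟨z₁, h11, h12⟩ := exists_ne hS h2 ha.2.1
  obtain ⟨z₂, h21, h22⟩ := exists_ne hS h2 hb.2.1
  have hmem : ∀ z, S z = z → ⟪a, z⟫ ≠ 0 → z ∈ WW q S := by
    intro z hz hne
    refine ⟨hz, ?_, iso_fix hS h2 hz⟩
    rintro rfl
    exact hne (hermForm_zero_right hF _ _)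
  by_cases h1 : ⟪b, z₁⟫ = 0
  · by_cases h3 : ⟪a, z₂⟫ = 0
    · refine ⟨z₁ + z₂, hmem _ (by rw [hS.add, h11, h21]) ?_, ?_, ?_⟩
      · rwa [hermForm_add_right hF, h3, add_zero]
      · rwa [hermForm_add_right hF, h3, add_zero]
      · rwa [hermForm_add_right hF, h1, zero_add]
    · exact ⟨z₂, hmem _ h21 h3, h3, h22⟩
  · exact ⟨z₁, hmem _ h11 h12, h12, h1⟩

/-- The parity of the number of points. -/
theorem even_XX_sp (hn : 3 ≤ n) (hne : Even n) (hq : Odd q) : 2 ∣ Nat.card (XX hF S) := by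
  classical
  obtain ⟨ε, hε0, hεq⟩ := exists_trace_zero hF
  have hfr := finrank_V0 hS hε0 hεq h2
  haveI : Finite (Kq hF) := inferInstance
  have h1 := Projectivization.card_of_finrank (Kq hF) (V0 hS) hfr
  rw [card_Kq] at h1
  have h3 : XX hF S = (fun a : {a : V0 hS // a ≠ 0} => A hF a.1.1) '' Set.univ := by
    ext T
    constructor
    · rintro ⟨a, ⟨h5, h6, h7⟩, rfl⟩
      exact ⟨⟨⟨a, h5⟩, fun h => h6 (congrArg Subtype.val h)⟩, trivial, rfl⟩
    · rintro ⟨a, -, rfl⟩
      exact ⟨a.1.1, ⟨a.1.2, fun h => a.2 (Subtype.ext h), iso_fix hS h2 a.1.2⟩, rfl⟩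
  have h4 : (fun a : {a : V0 hS // a ≠ 0} => Projectivization.mk (Kq hF) a.1 a.2) '' Set.univ = Set.univ := by
    rw [Set.image_univ, Set.range_eq_univ]
    intro P
    induction P using Projectivization.ind with
    | h v hv => exact ⟨⟨v, hv⟩, rfl⟩
  rw [h3, card_image_eq_of_iff _ (fun a : {a : V0 hS // a ≠ 0} => Projectivization.mk (Kq hF) a.1 a.2), h4, Nat.card_coe_set_eq,
    Set.ncard_univ, h1]
  · exact even_iff_two_dvd.1 ((even_sum_pow hq n).2 hne)
  · rintro a - b -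
    have ha' := iso_fix hS h2 a.1.2
    have hb' := iso_fix hS h2 b.1.2
    have ha0' : (a.1 : Fin n → F) ≠ 0 := fun h => a.2 (Subtype.ext h)
    have hb0' : (b.1 : Fin n → F) ≠ 0 := fun h => b.2 (Subtype.ext h)
    rw [Projectivization.mk_eq_mk_iff']
    constructor
    · intro h
      obtain ⟨l, hl0, hl⟩ := A_inj hF hn hb' ha' hb0' h.symm
      have hlq : l ^ q = l := by
        have h5 := a.1.2
        rw [mem_V0, hl, hS.smul, show S b.1.1 = b.1.1 from b.1.2] at h5
        exact smul_left_injective F hb0' h5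
      exact ⟨⟨l, hlq⟩, Subtype.ext hl.symm⟩
    · rintro ⟨k, hk⟩
      have hk' : (k : F) • b.1.1 = a.1.1 := congrArg Subtype.val hk
      have hk0 : (k : F) ≠ 0 := by
        intro h0
        rw [h0, zero_smul] at hk'
        exact ha0' hk'.symm
      change A hF a.1.1 = A hF b.1.1
      rw [← hk', A_smul hF hb' hk0]

end Form

/-- **The symplectic case.** -/
theorem Sp_case {r f : ℕ} [Fact r.Prime] [CharP F r] {hF : Fintype.card F = q ^ 2} {S : (Fin n → F) → (Fin n → F)} (hS : SData hF S (-1))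
    {g : GU n F q} {σ : F ≃+* F} {μ : F} (hμ : μ ≠ 0) (hT : ∀ x, S x = μ • Th g σ x)
    (hn : 3 ≤ n) (h32 : ¬ (n = 3 ∧ q = 2)) (hrq : r ∣ q) (hFr : Fintype.card F = r ^ f) (hf : 1 ≤ f)
    (hσ : orderOf σ = 2) (hσq : ∀ x, σ x = x ^ q) (h2 : (2 : F) ≠ 0) (hq : Odd q) (hne : Even n)
    (C L : Subgroup (MulAut (PSU n F q))) (hC : ∀ b ∈ C, b * (deltaOf g * phiOf σ) = (deltaOf g * phiOf σ) * b)
    (hKC : ∀ k ∈ MonoidHom.eqLocus (deltaOf g * phiOf σ : MulAut (PSU n F q)).toMonoidHom (MonoidHom.id (PSU n F q)), MulAut.conj k ∈ C)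
    (hLC : L ≤ C) (hLn : ∀ c ∈ C, ∀ y ∈ L, c * y * c⁻¹ ∈ L) (hcop : (Nat.card L).Coprime 2) : L = ⊥ := by
  classical
  haveI : Module.Finite (Kq hF) (V0 hS) := Module.Finite.of_finite
  refine inv_main hS hμ hT hn h32 hrq hFr hf hσ hσq h2 ?_ ?_ ?_ ?_ C L hC hKC hLC hLn hcop
  · intro a ha b hb hnp hab
    exact Or.inl (perp_sp hS h2 ha hb hnp)
  · intro a ha b hb hab
    exact common_partner_sp hS h2 ha hb
  · exact even_XX_sp hS h2 hn hne hq
  · intro s' τ' hτ' hinj heig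
    obtain ⟨ε, hε0, hεq⟩ := exists_trace_zero hF
    have h3 : 2 ≤ finrank (Kq hF) (V0 hS) := by
      rw [finrank_V0 hS hε0 hεq h2]
      omega
    exact scalar_of_all_eig h3 s' τ' hτ' hinj (fun v hv => heig v (fun h => hv (Subtype.ext h)) (iso_fix hS h2 v.2))

end Cfsg.Agent.Lib.Classical.HermBal.Inv4
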