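import Mathlib
import Cfsg.Agent.Lib.Classical.HermBal.Inv4

/-!
# Involutory automorphisms outside the inner-diagonal group of `PSU_n(q)`
-/

set_option autoImplicit false
set_option linter.unusedSectionVars false
set_option linter.unusedSimpArgs false
set_option linter.unusedVariables false
set_option linter.style.haveILetI false

open scoped Matrix
open Cfsg MulAction Module
open Cfsg.Agent.Lib.Classical.Herm.Basic Cfsg.Agent.Lib.Classical.Herm.Block
open Cfsg.Agent.Lib.Classical.Herm.Subfield Cfsg.Agent.Lib.Classical.Herm.Tv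
open Cfsg.Agent.Lib.Classical.Herm.Comm Cfsg.Agent.Lib.Classical.Herm.Unip
open Cfsg.Agent.Lib.Classical.Herm.Abar Cfsg.Agent.Lib.Classical.Herm.Psi
open Cfsg.Agent.Lib.Classical.Herm.SU Cfsg.Agent.Lib.Classical.Herm.AutMain
open Cfsg.Agent.Lib.Classical.Herm.AutStruct Cfsg.Agent.Lib.Classical.Herm.Descent
open Cfsg.Agent.Lib.Classical.Herm.Simple Cfsg.Agent.Lib.Classical.Herm.GU
open Cfsg.Agent.Lib.Classical.HermBal.BlockL Cfsg.Agent.Lib.Classical.HermBal.Inv1
open Cfsg.Agent.Lib.Classical.HermBal.Inv2 Cfsg.Agent.Lib.Classical.HermBal.Inv3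
open Cfsg.Agent.Lib.Classical.HermBal.Inv4 Cfsg.Agent.Lib.Classical.HermBal.Odd1

namespace Cfsg.Agent.Lib.Classical.HermBal.Inv5

variable {F : Type*} [Field F] [Fintype F] {q n : ℕ}

local notation "⟪" x ", " y "⟫" => hermForm _ _ q x y

/-- An involutory automorphism of a finite nonabelian group has a nontrivial fixed point. -/
theorem exists_fixed_of_invol {T : Type*} [Group T] [Finite T] (φ : MulAut T) (hφ : ∀ x, φ (φ x) = x)
    (hnab : ∃ x y : T, x * y ≠ y * x) : ∃ k : T, k ≠ 1 ∧ φ k = k := by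
  by_contra hcon
  push Not at hcon
  have hfix : ∀ k : T, φ k = k → k = 1 := by
    intro k hk
    by_contra h
    exact hcon k h hk
  let f : T → T := fun x => x⁻¹ * φ x
  have hinj : Function.Injective f := by
    intro x y h
    have h1 : x⁻¹ * φ x = y⁻¹ * φ y := h
    have h2 : φ (y * x⁻¹) = y * x⁻¹ := by
      rw [map_mul, map_inv]
      have h3 : φ y = y * (x⁻¹ * φ x) := by
        rw [h1]
        group
      rw [h3]
      group
    have h3 := hfix _ h2
    have h4 : y = x := by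
      rw [mul_inv_eq_one] at h3
      exact h3
    exact h4.symm
  have hsurj : Function.Surjective f := Finite.surjective_of_injective hinj
  have hinv : ∀ t, φ t = t⁻¹ := by
    intro t
    obtain ⟨x, rfl⟩ := hsurj t
    change φ (x⁻¹ * φ x) = (x⁻¹ * φ x)⁻¹
    rw [map_mul, map_inv, hφ]
    group
  obtain ⟨x, y, hxy⟩ := hnab
  apply hxy
  have h1 := map_mul φ x y
  rw [hinv, hinv, hinv, _root_.mul_inv_rev] at h1
  have h2 := congrArg (fun t => t⁻¹) h1
  simp only [_root_.mul_inv_rev, inv_inv] at h2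
  exact h2

/-- An involutory field automorphism is the `q`-power map. -/
theorem sigma_eq_pow (hF : Fintype.card F = q ^ 2) (σ : F ≃+* F) (hσ : orderOf σ = 2) (x : F) : σ x = x ^ q := by
  classical
  have hq := two_le_q hF
  have h1 := card_eq_pow_fix σ
  rw [hσ, Nat.card_eq_fintype_card, hF] at h1
  have hcard : Nat.card (fixF σ) = q := (Nat.pow_left_injective (n := 2) (by norm_num) h1).symm
  letI : Fintype (fixF σ) := Fintype.ofFinite _
  have hpow : ∀ y, σ y = y → y ^ q = y := by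
    intro y hy
    have h2 := FiniteField.pow_card (⟨y, hy⟩ : fixF σ)
    rw [← Nat.card_eq_fintype_card, hcard] at h2
    exact congrArg Subtype.val h2
  have hconv : ∀ y, y ^ q = y → σ y = y := by
    intro y hy
    have hsub : ∀ z : fixF σ, ((z : F)) ∈ Kq hF := fun z => hpow _ z.2
    let ι : fixF σ → Kq hF := fun z => ⟨z, hsub z⟩
    have hι : Function.Injective ι := fun a b h => Subtype.ext (show (a : F) = (b : F) from congrArg (fun w : Kq hF => (w : F)) h)
    have hbij := hι.bijective_of_nat_card_le (by rw [card_Kq, hcard])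
    obtain ⟨z, hz⟩ := hbij.2 ⟨y, hy⟩
    have h3 : (z : F) = y := congrArg Subtype.val hz
    rw [← h3]
    exact z.2
  have hσσ : ∀ y, σ (σ y) = y := by
    intro y
    have := pow_orderOf_eq_one σ
    rw [hσ, pow_two] at this
    exact RingEquiv.congr_fun this y
  have hs1 : (x + σ x) ^ q = x + σ x := hpow _ (by rw [map_add, hσσ, add_comm])
  have hs2 : (x * σ x) ^ q = x * σ x := hpow _ (by rw [map_mul, hσσ, mul_comm])
  rw [pow_q_add hF] at hs1
  rw [mul_pow] at hs2
  have h4 : (x ^ q - x) * (x ^ q - σ x) = 0 := by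
    linear_combination (x ^ q) * hs1 - hs2
  rcases mul_eq_zero.1 h4 with h5 | h5
  · have h6 : x ^ q = x := sub_eq_zero.1 h5
    rw [h6, hconv x h6]
  · exact (sub_eq_zero.1 h5).symm

section Main

variable {r f : ℕ} [Fact r.Prime] [CharP F r] {hF : Fintype.card F = q ^ 2}

/-- **Involutions.** -/
theorem two_case (hF : Fintype.card F = q ^ 2) (g : GU n F q) (σ : F ≃+* F)
    (hn : 3 ≤ n) (h32 : ¬ (n = 3 ∧ q = 2)) (hrq : r ∣ q) (hFr : Fintype.card F = r ^ f) (hf : 1 ≤ f)
    (hσ : orderOf σ = 2) (h2 : (2 : F) ≠ 0) (hq : Odd q)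
    (hβ : (deltaOf g * phiOf σ : MulAut (PSU n F q)) ^ 2 = 1)
    (C L : Subgroup (MulAut (PSU n F q))) (hC : ∀ b ∈ C, b * (deltaOf g * phiOf σ) = (deltaOf g * phiOf σ) * b)
    (hKC : ∀ k ∈ MonoidHom.eqLocus (deltaOf g * phiOf σ : MulAut (PSU n F q)).toMonoidHom (MonoidHom.id (PSU n F q)), MulAut.conj k ∈ C)
    (hLC : L ≤ C) (hLn : ∀ c ∈ C, ∀ y ∈ L, c * y * c⁻¹ ∈ L) (hcop : (Nat.card L).Coprime 2) : L = ⊥ := by
  have hσq := sigma_eq_pow hF σ hσ
  have hσ2 : σ * σ = 1 := by
    rw [← pow_two, ← hσ, pow_orderOf_eq_one]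
  have h1 : (deltaOf (g * guMap hF σ g) : MulAut (PSU n F q)) = 1 := by
    have h3 := hβ
    rw [pow_two, mul_delta_phi hF, hσ2, phiOf_one, mul_one] at h3
    exact h3
  obtain ⟨ν, hνN, hν⟩ := scalar_of_delta hF hn h32 h1
  set T := Th g σ with hT
  have hTT : ∀ x, T (T x) = ν • x := by
    intro x
    rw [hT, Th_comp hF, hσ2, Th, hν, scalar_mulVec']
    rfl
  have hTne : ∃ x₀, T x₀ ≠ 0 := by
    refine ⟨Pi.single ⟨0, by omega⟩ 1, fun h0 => ?_⟩
    have h3 : T 0 = 0 := by
      have := Th_add g σ 0 0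
      simpa using this
    have h4 := Th_injective hF g σ (h0.trans h3.symm)
    have h5 := congrFun h4 ⟨0, by omega⟩
    simp at h5
  obtain ⟨x₀, hx₀⟩ := hTne
  have hνq : ν ^ q = ν := by
    have h3 : T (T (T x₀)) = ν ^ q • T x₀ := by
      rw [hTT x₀, hT, Th_smul, hσq]
    rw [hTT (T x₀)] at h3
    exact (smul_left_injective F hx₀ h3).symm
  have hν2 : ν * ν = 1 := by
    have h3 := hνN
    rw [pow_succ, hνq] at h3
    exact h3
  have hν0 : ν ≠ 0 := by
    rintro rfl
    simp at hν2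
  have hνpm : ν = 1 ∨ ν = -1 := by
    have h3 : (ν - 1) * (ν + 1) = 0 := by linear_combination hν2
    rcases mul_eq_zero.1 h3 with h4 | h4
    · exact Or.inl (sub_eq_zero.1 h4)
    · exact Or.inr (eq_neg_of_add_eq_zero_left h4)
  obtain ⟨μ, hμ⟩ := exists_norm_eq hF ν hν0 hνq
  have hμ0 : μ ≠ 0 := by
    rintro rfl
    rw [zero_pow (by omega)] at hμ
    exact hν0 hμ.symm
  have hμμ : μ * μ ^ q = ν := by
    rw [← hμ, pow_succ, mul_comm]
  let S : (Fin n → F) → (Fin n → F) := fun x => μ • T x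
  have hS : SData hF S ν := by
    refine ⟨?_, ?_, ?_, ?_, hνpm⟩
    · intro x y
      simp only [S, hT, Th_add, smul_add]
    · intro c x
      simp only [S, hT, Th_smul, hσq, smul_comm μ]
    · intro x
      simp only [S]
      rw [hT, Th_smul, ← hT, hσq, hTT, smul_smul, smul_smul, hμμ, hν2, one_smul]
    · intro x y
      simp only [S]
      rw [hermForm_smul_left, hermForm_smul_right, hT, Th_form, hσq, hermForm_pow_q hF, ← mul_assoc, hμμ]
  have hTS : ∀ x, S x = μ • Th g σ x := fun x => rfl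
  rcases hνpm with rfl | rfl
  · exact O_case hS hμ0 hTS hn h32 hrq hFr hf hσ hσq h2 hq C L hC hKC hLC hLn hcop
  · have hne : Even n := by
      have h3 := congrArg Matrix.det hν
      rw [det_scalar'] at h3
      have h4 : ((g * guMap hF σ g : GU n F q).1 : Matrix (Fin n) (Fin n) F) =
          (g.1 : Matrix (Fin n) (Fin n) F) * (g.1 : Matrix (Fin n) (Fin n) F).map σ := rfl
      have h5 : (g.1 : Matrix (Fin n) (Fin n) F).det ^ (q + 1) = 1 := det_pow_succ hF _ g.2
      rw [h4, Matrix.det_mul, det_map, hσq, ← pow_succ', h5] at h3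
      by_contra hodd
      rw [Nat.not_even_iff_odd] at hodd
      rw [hodd.neg_one_pow] at h3
      apply h2
      linear_combination h3
    exact Sp_case hS hμ0 hTS hn h32 hrq hFr hf hσ hσq h2 hq hne C L hC hKC hLC hLn hcop

end Main

end Cfsg.Agent.Lib.Classical.HermBal.Inv5
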