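import Mathlib
import Cfsg.Agent.Lib.Classical.HermBal.Odd1
import Cfsg.Agent.Lib.Classical.Symp.Aut.Balance

/-!
# Balance for field automorphisms of odd prime order of `PSU_n(q)`
-/

set_option autoImplicit false
set_option linter.unusedSectionVars false
set_option linter.unusedSimpArgs false
set_option linter.unusedVariables false
set_option linter.style.haveILetI false

open scoped Matrix
open Cfsg MulAction
open Cfsg.Agent.Lib.Classical.Herm.Basic Cfsg.Agent.Lib.Classical.Herm.Block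
open Cfsg.Agent.Lib.Classical.Herm.Subfield Cfsg.Agent.Lib.Classical.Herm.Tv
open Cfsg.Agent.Lib.Classical.Herm.Comm Cfsg.Agent.Lib.Classical.Herm.Unip
open Cfsg.Agent.Lib.Classical.Herm.Abar Cfsg.Agent.Lib.Classical.Herm.Psi
open Cfsg.Agent.Lib.Classical.Herm.SU Cfsg.Agent.Lib.Classical.Herm.AutMain
open Cfsg.Agent.Lib.Classical.Herm.AutStruct Cfsg.Agent.Lib.Classical.Herm.Descent
open Cfsg.Agent.Lib.Classical.Herm.FieldCent Cfsg.Agent.Lib.Classical.Herm.Simple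
open Cfsg.Agent.Lib.Classical.Herm.GU Cfsg.Agent.Lib.Classical.Herm.TI2
open Cfsg.Agent.Lib.Classical.HermBal.Scalar Cfsg.Agent.Lib.Classical.HermBal.BlockL
open Cfsg.Agent.Lib.Classical.HermBal.Odd1

namespace Cfsg.Agent.Lib.Classical.HermBal.Odd2

variable {F F₀ : Type*} [Field F] [Fintype F] [Field F₀] [Fintype F₀] {q q₀ n : ℕ}

section Rho

variable (hF : Fintype.card F = q ^ 2) (hF₀ : Fintype.card F₀ = q₀ ^ 2) (j : F₀ →+* F)
  (hj : ∀ x, (j x) ^ q = j (x ^ q₀))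

include hj in
theorem iso_jhat {a : Fin n → F₀} (ha : hermForm n F₀ q₀ a a = 0) : hermForm n F q (jhat j a) (jhat j a) = 0 := by
  rw [jhat_form j hj, ha, map_zero]

include hj in
theorem trace_j {c : F₀} (hc : c + c ^ q₀ = 0) : j c + (j c) ^ q = 0 := by
  rw [hj, ← map_add, hc, map_zero]

theorem rho_tv {a : Fin n → F₀} (ha : hermForm n F₀ q₀ a a = 0) {c : F₀} (hc : c + c ^ q₀ = 0) :
    rho hF hF₀ j hj (tv hF₀ ha hc) = tv hF (iso_jhat j hj ha) (trace_j j hj hc) := by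
  apply Subtype.ext
  apply Subtype.ext
  change (unitaryTransvection n q₀ a c).map j = unitaryTransvection n q (jhat j a) (j c)
  ext u v
  simp [unitaryTransvection, Matrix.vecMulVec_apply, Matrix.one_apply, hj, jhat, apply_ite j]

theorem sigHat_jhat (τ : F ≃+* F) (hτ : ∀ x, τ (j x) = j x) (v : Fin n → F₀) : sigHat τ (jhat j v) = jhat j v := by
  funext i
  simp [jhat, hτ]

theorem Th_zero (g : GU n F q) (τ : F ≃+* F) : Th g τ 0 = 0 := by
  have := Th_add g τ 0 0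
  simpa using this

variable {r f : ℕ} [Fact r.Prime] [CharP F r] (hrq : r ∣ q) (hFr : Fintype.card F = r ^ f) (hf : 1 ≤ f)
  (σ : F ≃+* F) (hjσ : ∀ y, σ (j y) = j y) (hjr : ∀ y, σ y = y → ∃ z, j z = y)
  (hn : 3 ≤ n) (h32 : ¬ (n = 3 ∧ q = 2)) {p : ℕ} (hp : p.Prime) (hσ : orderOf σ = p)

include hrq hFr hf hjr hn h32 hp hσ in
/-- **An automorphism of order prime to `p` fixing `T0` is trivial.** -/
theorem eq_one_of_fix_T0 {α : MulAut (PSU n F q)} (hα : ∀ s, α (psiR hF hF₀ j hj s) = psiR hF hF₀ j hj s)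
    (hco : (orderOf α).Coprime p) : α = 1 := by
  obtain ⟨m, rfl⟩ : ∃ m, n = 2 + m := ⟨n - 2, by omega⟩
  have hm : 1 ≤ m := by omega
  obtain ⟨g, τ, rfl⟩ := aut_eq r hrq hF hn h32 α
  have heig : ∀ a : Fin (2 + m) → F₀, hermForm (2 + m) F₀ q₀ a a = 0 → ∃ l : F, Th g τ (jhat j a) = l • jhat j a := by
    intro a ha
    by_cases ha0 : a = 0
    · refine ⟨0, ?_⟩
      rw [ha0, jhat_zero, smul_zero, Th_zero]
    obtain ⟨c, hc0, hcq⟩ := exists_trace_zero hF₀
    have hc : c + c ^ q₀ = 0 := by rw [hcq]; ring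
    have h1 := hα (tv hF₀ ha hc)
    rw [← psi_eq, psiR_apply, rho_tv hF hF₀ j hj, psi_pi, psiSU_tv] at h1
    have h2 := tv_eq_of_pi_eq hF hn _ _ _ _ h1
    have hjc : j c ≠ 0 := by
      rw [Ne, map_eq_zero]
      exact hc0
    obtain ⟨l, -, hl⟩ := smul_of_tv_eq hF (iso_jhat j hj ha) (iso_Th g τ (iso_jhat j hj ha)) (jhat_ne_zero j ha0)
      (trace_j j hj hc) (trace_sigma hF τ (trace_j j hj hc)) hjc h2.symm
    exact ⟨l, hl⟩
  have hinj : ∀ x, Th g τ x = 0 → x = 0 := by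
    intro x hx
    apply Th_injective hF g τ
    rw [hx, Th_zero]
  obtain ⟨hτ, β, hβ⟩ := scalar_of_rational_iso hF hF₀ j hj hm (Th g τ) τ (Th_add g τ) (Th_smul g τ) hinj heig
  have hg : (g.1 : Matrix (Fin (2 + m)) (Fin (2 + m)) F) = Matrix.scalar (Fin (2 + m)) β := by
    apply scalar_of_columns
    intro k
    have h1 := hβ (Pi.single k 1)
    rw [Th, sigHat_jhat j τ hτ, jhat_single] at h1
    exact h1
  have hd := deltaOf_scalar hg
  have hs := sigmaHom_eq r hrq hF hn h32 g τ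
  have hτo : (orderOf τ).Coprime p := by
    rw [← hs]
    exact Nat.Coprime.coprime_dvd_left (orderOf_map_dvd _ _) hco
  have hτ1 : τ = 1 := by
    apply Cfsg.Agent.Lib.Classical.Symp.Aut.Balance.eq_one_of_fix_fix hFr hf σ τ hσ hp hτo
    intro c hc
    obtain ⟨z, rfl⟩ := hjr c hc
    exact hτ z
  rw [hd, hτ1, phiOf_one, one_mul]

include hn h32 hjr hp in
/-- `p` divides the order of `T0`. -/
theorem dvd_T0 (hFix : Nat.card (fixF σ) = q₀ ^ 2) (hq₀ : ∀ x ∈ fixF σ, x ^ q = x ^ q₀)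
    (hinj : Function.Injective (MulAut.conj : PSU n F q →* MulAut (PSU n F q)))
    (hd : p ∣ Nat.card (MonoidHom.eqLocus (phiOf σ : MulAut (PSU n F q)).toMonoidHom (MonoidHom.id (PSU n F q)))) :
    p ∣ Nat.card (T0 (n := n) hF hF₀ j hj) := by
  have : Fact p.Prime := ⟨hp⟩
  by_cases hpd : p ∣ q₀ + 1
  · exact dvd_T0_of_dvd hF hF₀ j hj hn hp hpd (two_le_q hF₀)
  obtain ⟨y, hy⟩ := exists_prime_orderOf_dvd_card' p hd
  have hy' : orderOf (y : PSU n F q) = p := by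
    rw [← Subgroup.orderOf_coe] at hy
    exact hy
  have hk : (phiOf σ : MulAut (PSU n F q)) (y : PSU n F q) = y := y.2
  apply dvd_card_of_mem hp (H := T0 hF hF₀ j hj) (pow_mem_T0 hF hF₀ j hj σ hjr hFix hq₀ hn h32 hinj hk)
  · rw [← pow_mul, mul_comm, pow_mul, ← hy', pow_orderOf_eq_one, one_pow]
  · intro h1
    apply hpd
    rw [← hy']
    exact orderOf_dvd_of_pow_eq_one h1

end Rho

end Cfsg.Agent.Lib.Classical.HermBal.Odd2
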