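import Mathlib
import Cfsg.Agent.Lib.Classical.HermBal.Odd2
import Cfsg.Agent.Lib.Classical.OrthAut.FldBal3

/-!
# Balance for field automorphisms of odd prime order of `PSU_n(q)`: the case `PSU_3(2)` and the conclusion
-/

set_option autoImplicit false
set_option linter.unusedSectionVars false
set_option linter.unusedSimpArgs false
set_option linter.unusedVariables false
set_option linter.style.haveILetI false

open scoped Matrix
open Cfsg MulAction
open Cfsg.Agent.Lib.Classical.Herm.Basic Cfsg.Agent.Lib.Classical.Herm.Block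
open Cfsg.Agent.Lib.Classical.Herm.Subfield Cfsg.Agent.Lib.Classical.Herm.Tv
open Cfsg.Agent.Lib.Classical.Herm.Comm Cfsg.Agent.Lib.Classical.Herm.Unip
open Cfsg.Agent.Lib.Classical.Herm.Abar Cfsg.Agent.Lib.Classical.Herm.Psi
open Cfsg.Agent.Lib.Classical.Herm.SU Cfsg.Agent.Lib.Classical.Herm.AutMain
open Cfsg.Agent.Lib.Classical.Herm.AutStruct Cfsg.Agent.Lib.Classical.Herm.Descent
open Cfsg.Agent.Lib.Classical.Herm.FieldCent Cfsg.Agent.Lib.Classical.Herm.Simple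
open Cfsg.Agent.Lib.Classical.Herm.GU Cfsg.Agent.Lib.Classical.Herm.TI2
open Cfsg.Agent.Lib.Classical.HermBal.Scalar Cfsg.Agent.Lib.Classical.HermBal.BlockL
open Cfsg.Agent.Lib.Classical.HermBal.Odd1 Cfsg.Agent.Lib.Classical.HermBal.Odd2

namespace Cfsg.Agent.Lib.Classical.HermBal.Odd3

variable {F F₀ : Type*} [Field F] [Fintype F] [Field F₀] [Fintype F₀] {q q₀ n : ℕ}

attribute [local instance] actSub

/-- Two perpendicular isotropic vectors in dimension three are proportional. -/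
theorem perp_dep (hF₀ : Fintype.card F₀ = q₀ ^ 2) {a b : Fin 3 → F₀} (ha0 : a ≠ 0) (ha : hermForm 3 F₀ q₀ a a = 0)
    (hb : hermForm 3 F₀ q₀ b b = 0) (hba : hermForm 3 F₀ q₀ b a = 0) : ∃ c : F₀, c • a = b := by
  have h := card_partners hF₀ (m := 1) a ha0 ha
  have h1 : Nat.card {y : Fin 1 → F₀ // hermForm 1 F₀ q₀ y y = 0} = 1 := by
    rw [Nat.card_eq_one_iff_unique]
    have hq := two_le_q hF₀
    have hz : ∀ y : {y : Fin 1 → F₀ // hermForm 1 F₀ q₀ y y = 0}, y.1 = 0 := by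
      rintro ⟨y, hy⟩
      funext i
      have hi : i = 0 := Subsingleton.elim _ _
      subst hi
      simp only [hermForm_apply, Fin.sum_univ_one] at hy
      have h2 : y 0 * y 0 ^ q₀ = y 0 ^ (q₀ + 1) := by ring
      rw [h2] at hy
      simpa using pow_eq_zero_iff (by omega) |>.1 hy
    refine ⟨⟨fun x y => Subtype.ext ((hz x).trans (hz y).symm)⟩, ⟨⟨0, hermForm_zero_left _ _⟩⟩⟩
  rw [h1, mul_one] at h
  by_contra hcon
  push Not at hcon
  have h2 : Nat.card {v : Fin (1 + 2) → F₀ // hermForm (1 + 2) F₀ q₀ v a = 0 ∧ hermForm (1 + 2) F₀ q₀ v v = 0 ∧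
      ∀ c : F₀, c • a ≠ v} ≠ 0 := by
    have : Nonempty {v : Fin (1 + 2) → F₀ // hermForm (1 + 2) F₀ q₀ v a = 0 ∧ hermForm (1 + 2) F₀ q₀ v v = 0 ∧
      ∀ c : F₀, c • a ≠ v} := ⟨⟨b, hba, hb, hcon⟩⟩
    exact Nat.card_pos.ne'
  omega

section Rho

variable (hF : Fintype.card F = q ^ 2) (hF₀ : Fintype.card F₀ = q₀ ^ 2) (j : F₀ →+* F)
  (hj : ∀ x, (j x) ^ q = j (x ^ q₀))

theorem A_rho (s : SU n F₀ q₀) {a : Fin n → F₀} (ha : hermForm n F₀ q₀ a a = 0) :
    MulAut.conj (psiR hF hF₀ j hj s) • A hF (jhat j a) = A hF (jhat j (act s a)) := by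
  rw [psiR_apply, A_conj hF _ (iso_jhat j hj ha), act_rho]

include hj in
theorem A_jhat_smul {a : Fin n → F₀} (ha : hermForm n F₀ q₀ a a = 0) {c : F₀} (hc : c ≠ 0) :
    A hF (jhat j (c • a)) = A hF (jhat j a) := by
  rw [jhat_smul, A_smul hF (iso_jhat j hj ha) ((map_ne_zero j).2 hc)]

omit [Fintype F] [Fintype F₀] in
theorem smul_of_jhat_eq {a v : Fin n → F₀} (ha : a ≠ 0) {l : F} (h : jhat j v = l • jhat j a) : ∃ c : F₀, v = c • a := by
  obtain ⟨i, hi⟩ : ∃ i, a i ≠ 0 := by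
    by_contra hcon
    push Not at hcon
    exact ha (funext hcon)
  have hl : l = j (v i * (a i)⁻¹) := by
    have h1 := congrFun h i
    simp only [jhat, Pi.smul_apply, smul_eq_mul] at h1
    have h2 : j (a i) ≠ 0 := (map_ne_zero j).2 hi
    rw [map_mul, map_inv₀, h1]
    field_simp
  refine ⟨v i * (a i)⁻¹, ?_⟩
  funext k
  apply j.injective
  have h1 := congrFun h k
  simp only [jhat, Pi.smul_apply, smul_eq_mul] at h1 ⊢
  rw [h1, hl]
  simp only [map_mul]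

end Rho

section Exc

variable (hF : Fintype.card F = q ^ 2) (hF₀ : Fintype.card F₀ = 2 ^ 2) (j : F₀ →+* F)
  (hj : ∀ x, (j x) ^ q = j (x ^ 2))

include hj hF₀ in
/-- The number of rational isotropic points. -/
theorem three_dvd : 3 ∣ Nat.card (Set.range (fun v : IsoVec F₀ 2 3 => A hF (jhat j v.1))) := by
  classical
  set X := Set.range (fun v : IsoVec F₀ 2 3 => A hF (jhat j v.1)) with hX
  let f' : IsoVec F₀ 2 3 → X := fun v => ⟨A hF (jhat j v.1), ⟨v, rfl⟩⟩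
  have hfib : ∀ x : X, Nat.card {v // f' v = x} = 3 := by
    rintro ⟨_, ⟨v₀, rfl⟩⟩
    have hc3 : Nat.card F₀ˣ = 3 := by
      rw [card_units hF₀]
    have h1 : ∀ c : F₀ˣ, (c : F₀) • v₀.1 ≠ 0 := by
      intro c h
      exact v₀.2.1 ((smul_eq_zero.1 h).resolve_left c.ne_zero)
    have h2 : ∀ c : F₀ˣ, hermForm 3 F₀ 2 ((c : F₀) • v₀.1) ((c : F₀) • v₀.1) = 0 := by
      intro c
      rw [hermForm_smul_left, hermForm_smul_right, v₀.2.2]
      ring
    have h3 : ∀ c : F₀ˣ, f' ⟨(c : F₀) • v₀.1, h1 c, h2 c⟩ = f' v₀ := by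
      intro c
      apply Subtype.ext
      exact A_jhat_smul hF j hj v₀.2.2 c.ne_zero
    refine Eq.trans (Nat.card_congr (Equiv.ofBijective (fun c : F₀ˣ => ⟨⟨(c : F₀) • v₀.1, h1 c, h2 c⟩, h3 c⟩) ⟨?_, ?_⟩)).symm hc3
    · intro c c' h
      have h1 : (c : F₀) • v₀.1 = (c' : F₀) • v₀.1 := congrArg (fun w => w.1.1) h
      exact Units.ext (smul_left_injective F₀ v₀.2.1 h1)
    · rintro ⟨v, hv⟩
      have hv' : A hF (jhat j v₀.1) = A hF (jhat j v.1) := (congrArg Subtype.val hv).symm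
      obtain ⟨l, -, hl⟩ := A_inj hF (by norm_num) (iso_jhat j hj v₀.2.2) (iso_jhat j hj v.2.2) (jhat_ne_zero j v₀.2.1) hv'
      obtain ⟨c, hc⟩ := smul_of_jhat_eq j v₀.2.1 hl
      have hc0 : c ≠ 0 := by
        rintro rfl
        rw [zero_smul] at hc
        exact v.2.1 hc
      refine ⟨Units.mk0 c hc0, ?_⟩
      apply Subtype.ext
      apply Subtype.ext
      exact hc.symm
  haveI : Fintype X := Fintype.ofFinite _
  have hcard : Nat.card (IsoVec F₀ 2 3) = 27 := by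
    rw [card_isoVec_eq hF₀]
    simp
    decide
  have h1 := Nat.card_congr (Equiv.sigmaFiberEquiv f')
  rw [Nat.card_sigma, hcard] at h1
  simp only [hfib] at h1
  simp at h1
  rw [Nat.card_coe_set_eq]
  omega

include hF₀ hj in
/-- Normal subgroups of `T0` of order prime to `3` in the exceptional case. -/
theorem T0_normal_exc (hinj : Function.Injective (MulAut.conj : PSU 3 F q →* MulAut (PSU 3 F q)))
    (N : Subgroup (PSU 3 F q)) (hN : N ≤ T0 hF hF₀ j hj)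
    (hNn : ∀ t ∈ T0 hF hF₀ j hj, ∀ y ∈ N, t * y * t⁻¹ ∈ N) (hc : (Nat.card N).Coprime 3) : N = ⊥ := by
  classical
  set X := Set.range (fun v : IsoVec F₀ 2 3 => A hF (jhat j v.1)) with hX
  set L : Subgroup (MulAut (PSU 3 F q)) := N.map MulAut.conj with hL
  set U : Set (MulAut (PSU 3 F q)) := Set.range (fun s : SU 3 F₀ 2 => MulAut.conj (psiR hF hF₀ j hj s)) with hU
  have hcL : Nat.card L = Nat.card N := Subgroup.card_map_of_injective hinj
  have hact : ∀ (s : SU 3 F₀ 2) (hs : True) (v : IsoVec F₀ 2 3), ∃ v' : IsoVec F₀ 2 3,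
      (v'.1 = act s v.1) := by
    intro s _ v
    exact ⟨⟨act s v.1, act_ne_zero s v.2.1, by rw [h_act]; exact v.2.2⟩, rfl⟩
  have hperp : ∀ a b : IsoVec F₀ 2 3, Perp (A hF (jhat j a.1)) (A hF (jhat j b.1)) → hermForm 3 F₀ 2 a.1 b.1 = 0 := by
    intro a b h
    have h1 := of_A_perp hF (by norm_num) (iso_jhat j hj a.2.2) (iso_jhat j hj b.2.2) (jhat_ne_zero j a.2.1) h
    rw [jhat_form j hj] at h1
    exact (map_eq_zero j).1 h1
  have hnperp : ∀ a b : IsoVec F₀ 2 3, hermForm 3 F₀ 2 a.1 b.1 = 0 → Perp (A hF (jhat j a.1)) (A hF (jhat j b.1)) := by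
    intro a b h
    apply A_perp_of hF (iso_jhat j hj a.2.2) (iso_jhat j hj b.2.2)
    rw [jhat_form j hj, h, map_zero]
  have hmain := block_prime (S := Subgroup (PSU 3 F q)) (G := MulAut (PSU 3 F q)) (p := 3) (by norm_num) X L ?_ Perp perp_symm U ?_
    (fun P _ => coprime_orbit L (by rwa [hcL]) P) ?_ ?_ ?_ (three_dvd hF hF₀ j hj)
  · rw [eq_bot_iff]
    intro y hy
    rw [Subgroup.mem_bot]
    obtain ⟨s, rfl⟩ := hN hy
    have heig : ∀ a : Fin (2 + 1) → F₀, hermForm (2 + 1) F₀ 2 a a = 0 →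
        ∃ l : F, act (rho hF hF₀ j hj s) (jhat j a) = l • jhat j a := by
      intro a ha
      by_cases ha0 : a = 0
      · exact ⟨0, by rw [ha0, jhat_zero, act_zero, smul_zero]⟩
      have h1 := hmain (MulAut.conj (psiR hF hF₀ j hj s)) ⟨_, hy, rfl⟩ _ ⟨⟨a, ha0, ha⟩, rfl⟩
      change MulAut.conj (psiR hF hF₀ j hj s) • A hF (jhat j a) = A hF (jhat j a) at h1
      rw [A_rho hF hF₀ j hj s ha, ← act_rho hF hF₀ j hj] at h1
      obtain ⟨l, -, hl⟩ := A_inj hF (by norm_num) (iso_jhat j hj ha) (iso_act _ (iso_jhat j hj ha)) (jhat_ne_zero j ha0) h1.symm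
      exact ⟨l, hl⟩
    obtain ⟨-, β, hβ⟩ := scalar_of_rational_iso hF hF₀ j hj (m := 1) (by norm_num) (act (rho hF hF₀ j hj s)) 1
      (act_add _) (fun c x => act_smul _ c x) (fun x hx => by
        by_contra h0
        exact act_ne_zero _ h0 hx) heig
    exact pi_eq_one_of_rational hF j hβ
  · -- `L` preserves `X`
    rintro _ ⟨n', hn', rfl⟩ _ ⟨v, rfl⟩
    obtain ⟨s, rfl⟩ := hN hn'
    refine ⟨⟨act s v.1, act_ne_zero s v.2.1, by rw [h_act]; exact v.2.2⟩, ?_⟩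
    exact (A_rho hF hF₀ j hj s v.2.2).symm
  · -- `U` normalises `L`
    rintro _ ⟨s, rfl⟩ _ ⟨n', hn', rfl⟩
    refine ⟨_, hNn _ ⟨s, rfl⟩ n' hn', ?_⟩
    simp [map_mul, map_inv]
  · -- transitivity
    rintro _ ⟨a, rfl⟩ _ ⟨b, rfl⟩ _ ⟨b', rfl⟩ hab hab'
    have h1 : hermForm 3 F₀ 2 b.1 a.1 ≠ 0 := by
      intro h
      exact hab (hnperp _ _ (hermForm_symm_zero hF₀ h))
    have h2 : hermForm 3 F₀ 2 b'.1 a.1 ≠ 0 := by
      intro h
      exact hab' (hnperp _ _ (hermForm_symm_zero hF₀ h))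
    set t := hermForm 3 F₀ 2 b.1 a.1 with ht
    set t' := hermForm 3 F₀ 2 b'.1 a.1 with ht'
    obtain ⟨hw, hκ, hE1, hE2⟩ := siegel_move hF₀ (t := 1) (a := a.1) (b := t⁻¹ • b.1) (b' := t'⁻¹ • b'.1) a.2.2 (iso_smul hF₀ b.2.2 _) (iso_smul hF₀ b'.2.2 _)
      (by rw [hermForm_smul_left, ← ht, inv_mul_cancel₀ h1]) (by rw [hermForm_smul_left, ← ht', inv_mul_cancel₀ h2]) one_ne_zero
    set E := siegel hF₀ a.2.2 hw hκ with hE
    refine ⟨_, ⟨E, rfl⟩, ?_, ?_⟩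
    · change MulAut.conj (psiR hF hF₀ j hj E) • A hF (jhat j a.1) = A hF (jhat j a.1)
      rw [A_rho hF hF₀ j hj E a.2.2, hE1]
    · change MulAut.conj (psiR hF hF₀ j hj E) • A hF (jhat j b.1) = A hF (jhat j b'.1)
      have h3 := A_jhat_smul hF j hj b.2.2 (inv_ne_zero h1)
      have h4 := A_jhat_smul hF j hj b'.2.2 (inv_ne_zero h2)
      rw [← h3, ← h4, A_rho hF hF₀ j hj E (iso_smul hF₀ b.2.2 _), hE2]
  · -- the perpendicular case does not occur
    rintro _ ⟨a, rfl⟩ _ ⟨b, rfl⟩ hne hab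
    exfalso
    have h1 := hperp a b hab
    obtain ⟨c, hc'⟩ := perp_dep hF₀ a.2.1 a.2.2 b.2.2 (hermForm_symm_zero hF₀ h1)
    have hc0 : c ≠ 0 := by
      rintro rfl
      rw [zero_smul] at hc'
      exact b.2.1 hc'.symm
    apply hne
    change A hF (jhat j b.1) = A hF (jhat j a.1)
    rw [← hc']
    exact A_jhat_smul hF j hj a.2.2 hc0
  · rintro _ ⟨a, rfl⟩ _ ⟨b, rfl⟩ hab
    have h1 := hperp a b hab
    obtain ⟨c, hc'⟩ := perp_dep hF₀ a.2.1 a.2.2 b.2.2 (hermForm_symm_zero hF₀ h1)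
    have hc0 : c ≠ 0 := by
      rintro rfl
      rw [zero_smul] at hc'
      exact b.2.1 hc'.symm
    obtain ⟨f, hf, hef⟩ := exists_partner hF₀ a.2.2 a.2.1
    have hf0 : f ≠ 0 := by
      rintro rfl
      rw [hermForm_zero_right hF₀] at hef
      exact zero_ne_one hef
    refine ⟨_, ⟨⟨f, hf0, hf⟩, rfl⟩, ?_, ?_⟩
    · intro h
      have h2 := hperp a ⟨f, hf0, hf⟩ h
      rw [show hermForm 3 F₀ 2 a.1 f = 1 from hef] at h2
      exact one_ne_zero h2
    · intro h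
      have h2 := hperp b ⟨f, hf0, hf⟩ h
      rw [← hc', hermForm_smul_left, show hermForm 3 F₀ 2 a.1 f = 1 from hef, mul_one] at h2
      exact hc0 h2

end Exc

section Main

variable {r f p : ℕ} [Fact r.Prime] [CharP F r]

/-- The exceptional case only occurs for `p = 3`. -/
theorem p_eq_three (hF : Fintype.card F = q ^ 2) (hF₀ : Fintype.card F₀ = 2 ^ 2) (j : F₀ →+* F)
    (hj : ∀ x, (j x) ^ q = j (x ^ 2)) (σ : F ≃+* F) (hjr : ∀ y, σ y = y → ∃ z, j z = y)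
    (hFix : Nat.card (fixF σ) = 2 ^ 2) (hq₀ : ∀ x ∈ fixF σ, x ^ q = x ^ 2) (h32 : ¬ (3 = 3 ∧ q = 2))
    (hp : p.Prime) (hp2 : p ≠ 2) (hinj : Function.Injective (MulAut.conj : PSU 3 F q →* MulAut (PSU 3 F q)))
    (hd : p ∣ Nat.card (MonoidHom.eqLocus (phiOf σ : MulAut (PSU 3 F q)).toMonoidHom (MonoidHom.id (PSU 3 F q)))) :
    p = 3 := by
  have : Fact p.Prime := ⟨hp⟩
  obtain ⟨y, hy⟩ := exists_prime_orderOf_dvd_card' p hd
  have hy' : orderOf (y : PSU 3 F q) = p := by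
    rw [← Subgroup.orderOf_coe] at hy
    exact hy
  have hk : (phiOf σ : MulAut (PSU 3 F q)) (y : PSU 3 F q) = y := y.2
  obtain ⟨m, hm⟩ := exists_gu_of_fixed hF hF₀ j hj σ hjr hFix hq₀ (by norm_num) h32 hk
  have hN : Nat.card (GU 3 F₀ 2) = 648 := by
    rw [card_GU hF₀]
    decide
  have h1 : m ^ 648 = 1 := by
    rw [← hN]
    exact pow_card_eq_one'
  have h2 : (deltaOf (J hF hF₀ j hj m) : MulAut (PSU 3 F q)) ^ 648 = 1 := by
    have h3 : (deltaOf (J hF hF₀ j hj m) : MulAut (PSU 3 F q)) ^ 648 = deltaHom hF (J hF hF₀ j hj (m ^ 648)) := by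
      rw [map_pow, map_pow]
      rfl
    rw [h3, h1, map_one, map_one]
  rw [hm, ← map_pow] at h2
  have h3 : (y : PSU 3 F q) ^ 648 = 1 := hinj (by rw [h2, map_one])
  have h4 : p ∣ 648 := by
    rw [← hy']
    exact orderOf_dvd_of_pow_eq_one h3
  have h5 : (648 : ℕ) = 2 ^ 3 * 3 ^ 4 := by norm_num
  rw [h5] at h4
  rcases (Nat.Prime.dvd_mul hp).1 h4 with h6 | h6
  · exact absurd ((Nat.prime_dvd_prime_iff_eq hp Nat.prime_two).1 (hp.dvd_of_dvd_pow h6)) hp2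
  · exact (Nat.prime_dvd_prime_iff_eq hp Nat.prime_three).1 (hp.dvd_of_dvd_pow h6)

/-- **The balance statement for a field automorphism of odd prime order.** -/
theorem main_odd_aux (hF : Fintype.card F = q ^ 2) (hF₀ : Fintype.card F₀ = q₀ ^ 2) (j : F₀ →+* F)
    (hj : ∀ x, (j x) ^ q = j (x ^ q₀)) (hrq : r ∣ q) (hFr : Fintype.card F = r ^ f) (hf : 1 ≤ f)
    (σ : F ≃+* F) (hjσ : ∀ y, σ (j y) = j y) (hjr : ∀ y, σ y = y → ∃ z, j z = y)
    (hFix : Nat.card (fixF σ) = q₀ ^ 2) (hq₀ : ∀ x ∈ fixF σ, x ^ q = x ^ q₀)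
    (hn : 3 ≤ n) (h32 : ¬ (n = 3 ∧ q = 2)) (hp : p.Prime) (hσ : orderOf σ = p) (hp2 : p ≠ 2)
    (hinj : Function.Injective (MulAut.conj : PSU n F q →* MulAut (PSU n F q)))
    (hd : p ∣ Nat.card (MonoidHom.eqLocus (phiOf σ : MulAut (PSU n F q)).toMonoidHom (MonoidHom.id (PSU n F q))))
    (C L : Subgroup (MulAut (PSU n F q))) (hC : ∀ β ∈ C, β * phiOf σ = phiOf σ * β)
    (hKC : ∀ k ∈ MonoidHom.eqLocus (phiOf σ : MulAut (PSU n F q)).toMonoidHom (MonoidHom.id (PSU n F q)), MulAut.conj k ∈ C)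
    (hLC : L ≤ C) (hLn : ∀ c ∈ C, ∀ y ∈ L, c * y * c⁻¹ ∈ L) (hcop : (Nat.card L).Coprime p) : L = ⊥ := by
  set K0 := MonoidHom.eqLocus (phiOf σ : MulAut (PSU n F q)).toMonoidHom (MonoidHom.id (PSU n F q)) with hK0
  have hT0K : T0 (n := n) hF hF₀ j hj ≤ K0 := by
    rintro _ ⟨s, rfl⟩
    exact phi_psiR hF hF₀ j hj σ hjσ s
  refine Cfsg.Agent.Lib.Classical.Symp.Aut.Balance.abstract_balance p C L (K0.map MulAut.conj) ((T0 hF hF₀ j hj).map MulAut.conj)
    hLC hLn ?_ ?_ (Subgroup.map_mono hT0K) ?_ ?_ hcop ?_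
  · rintro _ ⟨k, hk, rfl⟩
    exact hKC k hk
  · rintro c hc _ ⟨k, hk, rfl⟩
    refine ⟨c k, ?_, ?_⟩
    · have h1 := congrArg (fun β : MulAut (PSU n F q) => β k) (hC c hc)
      simp only [MulAut.mul_apply] at h1
      have hk' : (phiOf σ : MulAut (PSU n F q)) k = k := hk
      change (phiOf σ : MulAut (PSU n F q)) (c k) = c k
      rw [hk'] at h1
      exact h1.symm
    · change MulAut.conj (c k) = c * MulAut.conj k * c⁻¹
      rw [aut_mul_conj, mul_inv_cancel_right]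
  · rintro _ ⟨k, hk, rfl⟩ _ ⟨t, ht, rfl⟩
    refine ⟨k * t * k⁻¹, conj_T0 hF hF₀ j hj σ hjσ hjr hk ht, ?_⟩
    simp [map_mul, map_inv]
  · intro N hNT hNn hNc
    have hle : N ≤ (MulAut.conj : PSU n F q →* MulAut (PSU n F q)).range := by
      intro z hz
      obtain ⟨t, -, rfl⟩ := hNT hz
      exact ⟨t, rfl⟩
    have hmap : (N.comap (MulAut.conj : PSU n F q →* MulAut (PSU n F q))).map (MulAut.conj : PSU n F q →* MulAut (PSU n F q)) = N :=
      Subgroup.map_comap_eq_self hle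
    have hcard : Nat.card (N.comap (MulAut.conj : PSU n F q →* MulAut (PSU n F q))) = Nat.card N := by
      conv_rhs => rw [← hmap]
      exact (Subgroup.card_map_of_injective hinj).symm
    have hsub : N.comap (MulAut.conj : PSU n F q →* MulAut (PSU n F q)) ≤ T0 hF hF₀ j hj := by
      intro y hy
      obtain ⟨t, ht, hty⟩ := hNT hy
      have : t = y := hinj hty
      rwa [← this]
    have hnorm : ∀ t ∈ T0 hF hF₀ j hj, ∀ y ∈ N.comap (MulAut.conj : PSU n F q →* MulAut (PSU n F q)),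
        t * y * t⁻¹ ∈ N.comap (MulAut.conj : PSU n F q →* MulAut (PSU n F q)) := by
      intro t ht y hy
      rw [Subgroup.mem_comap] at hy ⊢
      have h1 := hNn (MulAut.conj t) ⟨t, ht, rfl⟩ _ hy
      rw [map_mul, map_mul, map_inv]
      exact h1
    have h0 : N.comap (MulAut.conj : PSU n F q →* MulAut (PSU n F q)) = ⊥ := by
      by_cases hex : n = 3 ∧ q₀ = 2
      · obtain ⟨rfl, rfl⟩ := hex
        have hp3 := p_eq_three hF hF₀ j hj σ hjr hFix hq₀ h32 hp hp2 hinj hd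
        subst hp3
        exact T0_normal_exc hF hF₀ j hj hinj _ hsub hnorm (by rwa [hcard])
      · exact T0_normal hF hF₀ j hj hp hex hn
          (dvd_T0 hF hF₀ j hj σ hjr hn h32 hp hFix hq₀ hinj hd) _ hsub hnorm (by rwa [hcard])
    rw [← hmap, h0, Subgroup.map_bot]
  · intro α hα hcent
    apply eq_one_of_fix_T0 hF hF₀ j hj hrq hFr hf σ hjr hn h32 hp hσ
    · intro s
      have h1 := hcent (MulAut.conj (psiR hF hF₀ j hj s)) ⟨_, ⟨s, rfl⟩, rfl⟩
      rw [aut_mul_conj] at h1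
      exact hinj (mul_right_cancel h1)
    · have h1 : orderOf α ∣ Nat.card L := by
        rw [← Subgroup.orderOf_mk _ hα]
        exact orderOf_dvd_natCard _
      exact Nat.Coprime.coprime_dvd_left h1 hcop

/-- A nontrivial fixed point. -/
theorem exists_fixed_ne (hF : Fintype.card F = q ^ 2) (hF₀ : Fintype.card F₀ = q₀ ^ 2) (j : F₀ →+* F)
    (hj : ∀ x, (j x) ^ q = j (x ^ q₀)) (σ : F ≃+* F) (hjσ : ∀ y, σ (j y) = j y) (hn : 3 ≤ n) :
    ∃ k : PSU n F q, k ≠ 1 ∧ (phiOf σ : MulAut (PSU n F q)) k = k := by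
  obtain ⟨a, ha, ha0⟩ := exists_iso_ne_zero (q := q₀) (F := F₀) hF₀ (by omega : 2 ≤ n)
  obtain ⟨f', hf', hef⟩ := exists_partner hF₀ ha ha0
  obtain ⟨c, hc0, hcq⟩ := exists_trace_zero hF₀
  have hc : c + c ^ q₀ = 0 := by rw [hcq]; ring
  set E := tv hF₀ ha hc with hE
  refine ⟨psiR hF hF₀ j hj E, ?_, phi_psiR hF hF₀ j hj σ hjσ E⟩
  intro h1
  obtain ⟨l, hl⟩ := scalar_of_pi_eq_one hF h1
  have h2 := hl (jhat j a)
  have h3 := hl (jhat j f')
  rw [act_rho, hE, act_tv, ha, mul_zero, zero_smul, add_zero] at h2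
  have hl1 : l = 1 := by
    have h4 : (l - 1) • jhat j a = 0 := by
      rw [sub_smul, one_smul, ← h2, sub_self]
    have h5 := (smul_eq_zero.1 h4).resolve_right (jhat_ne_zero j ha0)
    exact sub_eq_zero.1 h5
  rw [hl1, one_smul, act_rho, hE, act_tv, hermForm_symm_one hF₀ hef, mul_one] at h3
  have h6 : jhat j (c • a) = 0 := by
    have h7 : jhat j (f' + c • a) = jhat j f' + jhat j (c • a) := jhat_add j _ _
    rw [h7] at h3
    exact left_eq_add.1 h3.symm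
  have h8 : c • a = 0 := by
    by_contra h9
    exact jhat_ne_zero j h9 h6
  exact ha0 ((smul_eq_zero.1 h8).resolve_left hc0)

/-- **Odd primes.** -/
theorem odd_case (hF : Fintype.card F = q ^ 2) {k : ℕ} (hq : q = r ^ k) (hk : 1 ≤ k)
    (hn : 3 ≤ n) (h32 : ¬ (n = 3 ∧ q = 2)) (σ : F ≃+* F) (hp : p.Prime) (hσ : orderOf σ = p) (hodd : Odd p)
    (hinj : Function.Injective (MulAut.conj : PSU n F q →* MulAut (PSU n F q))) :
    (p ∣ Nat.card (MonoidHom.eqLocus (phiOf σ : MulAut (PSU n F q)).toMonoidHom (MonoidHom.id (PSU n F q))) →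
      ∀ C L : Subgroup (MulAut (PSU n F q)), (∀ β ∈ C, β * phiOf σ = phiOf σ * β) →
      (∀ k ∈ MonoidHom.eqLocus (phiOf σ : MulAut (PSU n F q)).toMonoidHom (MonoidHom.id (PSU n F q)), MulAut.conj k ∈ C) →
      L ≤ C → (∀ c ∈ C, ∀ y ∈ L, c * y * c⁻¹ ∈ L) → (Nat.card L).Coprime p → L = ⊥) ∧
    ∃ k : PSU n F q, k ≠ 1 ∧ (phiOf σ : MulAut (PSU n F q)) k = k := by
  classical
  have hodd' : Odd (orderOf σ) := by rwa [hσ]
  obtain ⟨-, hFix, hqq⟩ := fix_card_of_odd hq hF σ hodd'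
  set q₀' := r ^ (k / orderOf σ) with hq₀'
  have hq₀ := pow_q_of_fix hFix hqq hodd'
  letI : Fintype (fixF σ) := Fintype.ofFinite _
  have hF₀ : Fintype.card (fixF σ) = q₀' ^ 2 := by
    rw [← Nat.card_eq_fintype_card]
    exact hFix
  let j : fixF σ →+* F := (fixF σ).subtype
  have hj : ∀ x, (j x) ^ q = j (x ^ q₀') := by
    intro x
    rw [map_pow]
    exact hq₀ _ x.2
  have hjσ : ∀ y, σ (j y) = j y := fun y => y.2
  have hjr : ∀ y, σ y = y → ∃ z, j z = y := fun y hy => ⟨⟨y, hy⟩, rfl⟩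
  have hFr : Fintype.card F = r ^ (2 * k) := by
    rw [hF, hq, ← pow_mul, mul_comm]
  have hrq : r ∣ q := by
    rw [hq]
    exact dvd_pow_self r (by omega)
  refine ⟨fun hd C L hC hKC hLC hLn hcop => ?_, exists_fixed_ne hF hF₀ j hj σ hjσ hn⟩
  have hp2 : p ≠ 2 := by
    rintro rfl
    exact (by decide : ¬ Odd 2) hodd
  exact main_odd_aux hF hF₀ j hj hrq hFr (by omega) σ hjσ hjr hFix hq₀ hn h32 hp hσ hp2 hinj hd C L hC hKC hLC hLn hcop

end Main

end Cfsg.Agent.Lib.Classical.HermBal.Odd3
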